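import Cfsg.Agent.MQ.D.G2a
import Cfsg.Agent.MQ.WT.Chk
import Cfsg.Agent.LV.Cl.Chain
import Cfsg.Agent.Prune
set_option linter.all false
prune_inst 0x7f00000000000000000000000000000000000000000000000000000000000000000000000000000000000000000000000000000000000000000000000000000000000000000000000000000000000000003fffffffffffffffffffffffffffbeffbdfbfeffff
open scoped Cfsg.Agent.FastGrp

-- part: MO/J/Rot
section
/-!
# MO-J: the rotation of the rows (Fourier matrix), families, the orthonormal system (helper90)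

* `R F` the rotation, `R_R`; `rh`, `rho M u w` its matrix: `rho_comm`, `rho_fam`, `rho_flip`, `rho_sq`, `rho_unit`;
* `fm D Z I` the members of a family, `Fam`, `sum_Fam`, `sum_pos`;
* `cc M`, `XM s τ` : `R (YM s) = cc M * XM s`, `XM_zero`, `XM_cons`, `XM_row`;
* `XK`, `LabX` the orthonormal system of a kind; `XK_box`, `YK_expand`, `XK_expand`;
* `YT_rk`, `bSwap : BSwap`.
-/

set_option autoImplicit false
set_option linter.unusedSectionVars false

namespace Cfsg.Agent.MO.J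

open Equiv Finset Cfsg.Agent.H614

variable {M : ℕ} {u v w : Finset Pt}

/-! ### the rotation -/

/-- the matrix of the rotation -/
def gg (a b : Bool) : ℤ := if a = true ∧ b = true then -1 else 1

/-- the tuple with the positions of `τ` and the rows `e` -/
def wr (τ : Fin M → Pt) (e : Fin M → Bool) (j : Fin M) : Pt := ((τ j).1, e j)

/-- **the rotation** -/
def R (F : (Fin M → Pt) → ℤ) (τ : Fin M → Pt) : ℤ := ∑ e : Fin M → Bool, (∏ j, gg (τ j).2 (e j)) * F (wr τ e)

theorem gg_comm (a b : Bool) : gg a b = gg b a := by revert a b; decide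

theorem gg_xor (a b d : Bool) : gg a (xor b d) = gg a b * gg a d := by revert a b d; decide

theorem R_alt {F : (Fin M → Pt) → ℤ} (h : AltT F) : AltT (R F) := fun σ τ => by
  rw [R, R, smul_sum, ← Equiv.sum_comp (Equiv.arrowCongr σ.symm (Equiv.refl Bool))]
  refine sum_congr rfl fun e _ => ?_
  rw [smul_eq_mul, mul_left_comm, ← smul_eq_mul (sg σ), ← h, ← Equiv.prod_comp σ fun j => gg (τ j).2 (e j)]
  rfl

theorem R_R (F : (Fin M → Pt) → ℤ) (τ : Fin M → Pt) : R (R F) τ = 2 ^ M * F τ := by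
  have h1 : ∀ a d : Bool, ∑ b, gg a b * gg b d = if d = a then 2 else 0 := by decide
  simp only [R, mul_sum, ← mul_assoc, ← prod_mul_distrib]
  rw [sum_comm, sum_eq_single fun j => (τ j).2]
  · rw [← show ∑ e : Fin M → Bool, ∏ j, gg (τ j).2 (e j) * gg (e j) (τ j).2 = 2 ^ M by
      rw [← Fintype.piFinset_univ, ← prod_univ_sum (f := fun j b => gg (τ j).2 b * gg b (τ j).2)]
      simp only [h1, if_true, prod_const, card_univ, Fintype.card_fin], sum_mul]
    rfl
  · intro d _ hd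
    obtain ⟨j, hj⟩ := Function.ne_iff.1 hd
    have h2 : ∑ e : Fin M → Bool, ∏ j, gg (τ j).2 (e j) * gg (e j) (d j) = 0 := by
      rw [← Fintype.piFinset_univ, ← prod_univ_sum (f := fun j b => gg (τ j).2 b * gg b (d j))]
      exact prod_eq_zero (mem_univ j) (by rw [h1, if_neg hj])
    refine Eq.trans ?_ (mul_eq_zero_of_left h2 (F (wr τ d)))
    rw [sum_mul]
    rfl
  · simp only [mem_univ, not_true_eq_false, IsEmpty.forall_iff]

theorem R_sum {ι : Type} (s : Finset ι) (F : ι → (Fin M → Pt) → ℤ) (τ : Fin M → Pt) :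
    R (fun x => ∑ i ∈ s, F i x) τ = ∑ i ∈ s, R (F i) τ := by
  simp only [R, mul_sum]
  exact sum_comm

theorem R_mul (c : ℤ) (F : (Fin M → Pt) → ℤ) (τ : Fin M → Pt) : R (fun x => c * F x) τ = c * R F τ := by
  simp only [R, mul_sum, mul_left_comm c]

theorem R_congr {F G : (Fin M → Pt) → ℤ} {τ : Fin M → Pt} (h : ∀ e, F (wr τ e) = G (wr τ e)) : R F τ = R G τ := by
  simp only [R, h]

theorem R_flip (F : (Fin M → Pt) → ℤ) (τ : Fin M → Pt) (d : Fin M → Bool) :
    R F (wr τ fun j => xor (τ j).2 (d j)) = R (fun x => (∏ j, gg (x j).2 (d j)) * F x) τ := by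
  refine sum_congr rfl fun e _ => ?_
  rw [← mul_assoc, ← prod_mul_distrib]
  exact congrArg₂ _ (prod_congr rfl fun j _ => by rw [gg_comm, gg_comm (τ j).2]; exact gg_xor _ _ _) rfl

/-- the weight of a bead in the rotated recursion -/
def wg (η : ℤˣ) (b : Bool) : ℤ := if b = true then η else 1

theorem R_step (F : (Fin M → Pt) → ℤ) (τ : Fin M → Pt) (j : Fin M) (f : ℕ → ℕ) (η : ℤˣ) :
    R (fun x => F (Function.update x j (f (x j).1, fl η (x j).2))) τ =
      wg η (τ j).2 * R F (Function.update τ j (f (τ j).1, (τ j).2)) := by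
  have h0 : ∀ b, fl η (fl η b) = b := fun b => by unfold fl; split_ifs <;> simp
  have h1 : Function.Involutive fun e : Fin M → Bool => Function.update e j (fl η (e j)) := fun e => by simp [h0]
  rw [R, R, mul_sum, ← Equiv.sum_comp h1.toPerm]
  refine sum_congr rfl fun e _ => ?_
  rw [← mul_assoc, Function.Involutive.coe_toPerm]
  congr 1
  · rw [← mul_prod_erase _ _ (mem_univ j), ← mul_prod_erase _ _ (mem_univ j), ← mul_assoc]
    congr 1
    · simp only [Function.update_self]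
      rcases Int.units_eq_one_or η with rfl | rfl <;> cases (τ j).2 <;> cases e j <;> rfl
    · exact prod_congr rfl fun i hi => by simp only [Function.update_of_ne (ne_of_mem_erase hi)]
  · refine congrArg F (funext fun i => ?_)
    by_cases hi : i = j
    · subst hi
      simp [wr, h0]
    · simp [wr, hi]

theorem alt_expand {Φ : (Fin M → Pt) → ℤ} (hΦ : AltT Φ) {L : Finset (Finset Pt)} (hL : ∀ w ∈ L, #w = M) {τ : Fin M → Pt}
    (h : Φ τ ≠ 0 → univ.image τ ∈ L) : Φ τ = ∑ w ∈ L, pr τ (tup M w) * Φ (tup M w) := by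
  have h1 : ∀ w ∈ L, pr τ (tup M w) ≠ 0 → Φ τ = pr τ (tup M w) * Φ (tup M w) := fun w hw e => by
    obtain ⟨σ, rfl⟩ := pr_ne e
    rw [hΦ, show pr _ _ = sg σ • pr _ _ from pr_alt_left (tup M w) σ _, pr_self (tup_inj (hL w hw)), smul_eq_mul, smul_eq_mul,
      mul_one]
  by_cases h0 : Φ τ = 0
  · refine h0.trans (sum_eq_zero fun w hw => ?_).symm
    by_cases e : pr τ (tup M w) = 0
    · rw [e, zero_mul]
    · rw [← h1 w hw e, h0]
  · rw [sum_eq_single_of_mem _ (h h0) fun w hw e => mul_eq_zero_of_left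
      (by_contra fun e' => e (by rw [pr_image e', image_tup (hL w hw)])) _]
    refine h1 _ (h h0) fun e => h0 ?_
    rw [alt_eq (pr_alt_left _) (hΦ.inj h0), pr_self (tup_inj (hL _ (h h0))), smul_eq_mul, mul_one] at e
    rw [alt_eq hΦ (hΦ.inj h0), e, zero_smul]

/-- the matrix of the rotation on tuples -/
def rh (τ x : Fin M → Pt) : ℤ := R (fun y => pr y x) τ

theorem rh_eq (τ x : Fin M → Pt) :
    rh τ x = ∑ σ : Perm (Fin M), if ∀ j, (τ j).1 = (x (σ j)).1 then sg σ * ∏ j, gg (τ j).2 (x (σ j)).2 else 0 := by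
  simp only [rh, R, pr, mul_sum]
  rw [sum_comm]
  refine sum_congr rfl fun σ _ => ?_
  rw [sum_eq_single fun j => (x (σ j)).2]
  · rw [mul_ite, mul_zero, mul_comm]
    exact if_congr ⟨fun h j => (congrArg Prod.fst (congrFun h j) :), fun h => funext fun j => Prod.ext (h j) rfl⟩ rfl rfl
  · exact fun e _ he => mul_eq_zero_of_right _ (if_neg fun h => he (funext fun j => congrArg Prod.snd (congrFun h j)))
  · simp only [mem_univ, not_true_eq_false, mul_ite, mul_zero, ite_eq_right_iff, mul_eq_zero, Units.ne_zero, or_false,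
      IsEmpty.forall_iff]

theorem rh_comm (τ x : Fin M → Pt) : rh τ x = rh x τ := by
  rw [rh_eq, rh_eq, ← Equiv.sum_comp (Equiv.inv (Perm (Fin M)))]
  refine sum_congr rfl fun σ _ => if_congr ⟨fun h j => ?_, fun h j => ?_⟩ ?_ rfl
  · simpa using (h (σ j)).symm
  · simpa using (h (σ⁻¹ j)).symm
  · rw [Equiv.inv_apply, sg_inv, ← Equiv.prod_comp σ]
    simp only [Perm.coe_inv, symm_apply_apply, gg_comm]

theorem rh_alt (x : Fin M → Pt) : AltT fun τ => rh τ x := R_alt (pr_alt_left x)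

theorem R_expand {Φ : (Fin M → Pt) → ℤ} (hΦ : AltT Φ) {L : Finset (Finset Pt)} (hL : ∀ w ∈ L, #w = M) {τ : Fin M → Pt}
    (h : ∀ e, Φ (wr τ e) ≠ 0 → univ.image (wr τ e) ∈ L) : R Φ τ = ∑ w ∈ L, rh τ (tup M w) * Φ (tup M w) := by
  rw [R_congr (G := fun x => ∑ w ∈ L, Φ (tup M w) * pr x (tup M w)) fun e => by
    simpa only [mul_comm] using alt_expand hΦ hL (h e), R_sum]
  exact sum_congr rfl fun w _ => by rw [R_mul, mul_comm, rh]

/-- the exchange of the rows at the positions in `S` -/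
def fp (S : Finset ℕ) (a : Pt) : Pt := (a.1, xor a.2 (decide (a.1 ∈ S)))

theorem fp_fp (S : Finset ℕ) (a : Pt) : fp S (fp S a) = a := by
  by_cases h : a.1 ∈ S <;> simp [fp, h]

theorem fp_inj (S : Finset ℕ) : Function.Injective (fp S) := Function.Involutive.injective (fp_fp S)

theorem mem_row {x : ℕ} {b : Bool} : x ∈ row u b ↔ (x, b) ∈ u := by
  simp only [row, mem_image, mem_filter]
  exact ⟨fun ⟨a, ⟨h, e⟩, e'⟩ => by rwa [← e, ← e'], fun h => ⟨_, ⟨h, rfl⟩, rfl⟩⟩

theorem card_row (u : Finset Pt) (b : Bool) (p : ℕ → Prop) [DecidablePred p] :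
    #{x ∈ row u b | p x} = #{a ∈ u | a.2 = b ∧ p a.1} :=
  card_bij (fun x _ => (x, b)) (fun _ hx => mem_filter.2 ⟨mem_row.1 (mem_filter.1 hx).1, rfl, (mem_filter.1 hx).2⟩)
    (fun _ _ _ _ e => congrArg Prod.fst e) fun a ha => by
      obtain ⟨h1, rfl, h2⟩ := mem_filter.1 ha
      exact ⟨a.1, mem_filter.2 ⟨mem_row.2 h1, h2⟩, rfl⟩

theorem rh_fp (S : Finset ℕ) (τ : Fin M → Pt) (hw : #w = M) :
    rh (fp S ∘ τ) (tup M w) = (-1) ^ #(row w true ∩ S) * rh τ (tup M w) := by
  have h1 : ∏ j, gg (tup M w j).2 (decide ((tup M w j).1 ∈ S)) = (-1) ^ #(row w true ∩ S) := by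
    rw [← filter_mem_eq_inter, card_row, ← prod_const, prod_filter]
    conv_rhs => rw [← image_tup hw, prod_image (tup_inj hw).injOn]
    exact prod_congr rfl fun j _ => by simp [gg]
  rw [rh_eq, rh_eq, mul_sum, ← h1]
  refine sum_congr rfl fun σ _ => ?_
  rw [mul_ite, mul_zero]
  refine if_ctx_congr Iff.rfl (fun h => ?_) fun _ => rfl
  rw [mul_left_comm, ← Equiv.prod_comp σ fun j => gg (tup M w j).2 (decide ((tup M w j).1 ∈ S)), ← prod_mul_distrib]
  refine congrArg _ (prod_congr rfl fun j _ => ?_)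
  replace h : (τ j).1 = _ := h j
  rw [← h, gg_comm, mul_comm, gg_comm (τ j).2]
  exact gg_xor _ _ _

/-! ### families -/

theorem mem_dbl {x : ℕ} : x ∈ dbl u ↔ (x, false) ∈ u ∧ (x, true) ∈ u := by rw [dbl, mem_inter, mem_row, mem_row]

theorem mem_low {x : ℕ} : x ∈ low u ↔ (x, true) ∈ u ∧ (x, false) ∉ u := by rw [low, mem_sdiff, mem_row, mem_row]

theorem mem_sing {x : ℕ} : x ∈ sing u ↔ ¬ ((x, false) ∈ u ↔ (x, true) ∈ u) := by
  rw [sing, mem_symmDiff, mem_row, mem_row]; tauto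

theorem low_subset (u : Finset Pt) : low u ⊆ sing u := fun x => by rw [mem_low, mem_sing]; itauto

theorem disj_dbl (u : Finset Pt) : Disjoint (dbl u) (sing u) := disjoint_left.2 fun x => by rw [mem_dbl, mem_sing]; itauto

/-- the member of a family: doubled positions `D`, single positions `Z`, those of `I` in the second row -/
def fm (D Z I : Finset ℕ) : Finset Pt := (D ∪ (Z \ I)).image (fun x => (x, false)) ∪ (D ∪ I).image fun x => (x, true)

theorem cu_eq (p r : ℕ) (I : Finset ℕ) : cu p r I = fm (range p) (Ico p (p + r)) I := rfl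

theorem mem_fm_false {D Z I : Finset ℕ} {x : ℕ} : (x, false) ∈ fm D Z I ↔ x ∈ D ∨ (x ∈ Z ∧ x ∉ I) := by simp [fm]

theorem mem_fm_true {D Z I : Finset ℕ} {x : ℕ} : (x, true) ∈ fm D Z I ↔ x ∈ D ∨ x ∈ I := by simp [fm]

theorem ext_row (h : ∀ x, ((x, false) ∈ u ↔ (x, false) ∈ v) ∧ ((x, true) ∈ u ↔ (x, true) ∈ v)) : u = v := by
  ext ⟨x, b⟩
  cases b
  · exact (h x).1
  · exact (h x).2

theorem fm_self (u : Finset Pt) : fm (dbl u) (sing u) (low u) = u := ext_row fun x => by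
  rw [mem_fm_false, mem_fm_true, mem_dbl, mem_sing, mem_low]; tauto

theorem fm_spec {D Z I : Finset ℕ} (h : Disjoint D Z) (hI : I ⊆ Z) :
    dbl (fm D Z I) = D ∧ sing (fm D Z I) = Z ∧ low (fm D Z I) = I := by
  refine ⟨?_, ?_, ?_⟩ <;> ext x <;> have h1 := @disjoint_left.1 h x <;> have h2 := @hI x <;>
    simp only [mem_dbl, mem_sing, mem_low, mem_fm_false, mem_fm_true] <;> (clear * - D Z I x h1 h2; tauto)

theorem eq_of_low (h1 : dbl u = dbl v) (h2 : sing u = sing v) (h3 : low u = low v) : u = v := by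
  rw [← fm_self u, h1, h2, h3, fm_self]

/-- the family of a label -/
def Fam (u : Finset Pt) : Finset (Finset Pt) := (sing u).powerset.image (fm (dbl u) (sing u))

theorem mem_Fam : v ∈ Fam u ↔ dbl v = dbl u ∧ sing v = sing u := by
  simp only [Fam, mem_image, mem_powerset]
  refine ⟨?_, fun h => ⟨low v, h.2 ▸ low_subset v, by rw [← h.1, ← h.2, fm_self]⟩⟩
  rintro ⟨I, hI, rfl⟩
  exact ⟨(fm_spec (disj_dbl u) hI).1, (fm_spec (disj_dbl u) hI).2.1⟩

theorem sum_Fam {A : Type*} [AddCommMonoid A] (u : Finset Pt) (f : Finset Pt → A) :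
    ∑ v ∈ Fam u, f v = ∑ I ∈ (sing u).powerset, f (fm (dbl u) (sing u) I) :=
  sum_image fun I hI I' hI' e => by
    rw [← (fm_spec (disj_dbl u) (mem_powerset.1 hI)).2.2, e, (fm_spec (disj_dbl u) (mem_powerset.1 hI')).2.2]

theorem sum_row {A : Type*} [AddCommMonoid A] (u : Finset Pt) (f : Pt → A) :
    ∑ a ∈ u, f a = ∑ x ∈ row u false, f (x, false) + ∑ x ∈ row u true, f (x, true) := by
  have h : ∀ b, ∑ x ∈ row u b, f (x, b) = ∑ a ∈ u with a.2 = b, f a := fun b =>
    sum_bij (fun x _ => (x, b)) (fun _ hx => mem_filter.2 ⟨mem_row.1 hx, rfl⟩) (fun _ _ _ _ e => congrArg Prod.fst e)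
      (fun a ha => by
        obtain ⟨h1, rfl⟩ := mem_filter.1 ha
        exact ⟨a.1, mem_row.2 h1, rfl⟩) fun _ _ => rfl
  rw [h, h, ← sum_filter_add_sum_filter_not u fun a => a.2 = false]
  simp only [Bool.not_eq_false]

theorem sum_pos {A : Type*} [AddCommMonoid A] (u : Finset Pt) (f : ℕ → A) :
    ∑ a ∈ u, f a.1 = 2 • ∑ x ∈ dbl u, f x + ∑ x ∈ sing u, f x := by
  have h : row u false ∪ row u true = dbl u ∪ sing u := by
    ext x
    simp only [mem_union, mem_row, mem_dbl, mem_sing]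
    tauto
  rw [sum_row, ← sum_union_inter (f := f), h, sum_union (disj_dbl u), two_nsmul, add_right_comm]
  rfl

theorem card_eq (u : Finset Pt) : #u = 2 * #(dbl u) + #(sing u) := by simpa using sum_pos u fun _ => (1 : ℕ)

theorem card_row_true (u : Finset Pt) : #(row u true) = #(dbl u) + #(low u) := by
  rw [dbl, low, inter_comm, card_inter_add_card_sdiff]

theorem card_rows (u : Finset Pt) : #u = #(row u false) + #(row u true) := by simpa using sum_row u fun _ => (1 : ℕ)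

theorem sum_pos_fam {A : Type*} [AddCommMonoid A] (h : v ∈ Fam u) (f : ℕ → A) : ∑ a ∈ v, f a.1 = ∑ a ∈ u, f a.1 := by
  rw [sum_pos, sum_pos, (mem_Fam.1 h).1, (mem_Fam.1 h).2]

theorem card_fam (h : v ∈ Fam u) : #v = #u := by simpa using sum_pos_fam h fun _ => (1 : ℕ)

theorem mem_image_fp {S : Finset ℕ} {a : Pt} : a ∈ u.image (fp S) ↔ fp S a ∈ u := by
  rw [mem_image]
  exact ⟨fun ⟨b, hb, e⟩ => by rwa [← e, fp_fp], fun h => ⟨_, h, fp_fp S a⟩⟩

theorem image_fp (h : v ∈ Fam u) : u.image (fp (symmDiff (low u) (low v))) = v := ext_row fun x => by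
  have h1 := Finset.ext_iff.1 (mem_Fam.1 h).1 x
  have h2 := Finset.ext_iff.1 (mem_Fam.1 h).2 x
  simp only [mem_dbl, mem_sing] at h1 h2
  simp only [mem_image_fp, fp, mem_symmDiff, mem_low]
  by_cases a : (x, false) ∈ u <;> by_cases b : (x, true) ∈ u <;> by_cases c : (x, false) ∈ v <;>
    by_cases d : (x, true) ∈ v <;> simp_all only [and_self, not_true_eq_false, and_false, not_false_eq_true, and_true,
        or_self, decide_false, bne_self_eq_false, Bool.bne_false, iff_true, iff_false, or_true, decide_true, Bool.bne_true,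
        Bool.not_false, or_false]

theorem eu_sq (u : Finset Pt) : eu u * eu u = 1 := by rw [eu, ← mul_pow, neg_mul_neg, one_mul, one_pow]

theorem sgn2_pos (h : #u = M) : sgn2 (cp (toLex : Pt → ℕ ×ₗ Bool)) (tup M u) = eu u := by
  refine (sgn2_map (f := id) _ h toLex.injective.injOn).trans (congrArg _ (card_bij (fun z _ => (z.1.1, z.2.1)) ?_ ?_ ?_))
  · rintro ⟨⟨x, b⟩, y, d⟩ hz
    simp only [mem_filter, mem_product, ky_lt, id, Prod.Lex.toLex_lt_toLex, mem_row] at hz ⊢
    obtain ⟨h1, h2, h3⟩ := hz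
    cases b <;> cases d <;> simp at h2 h3 <;> first | omega | exact ⟨h1, h3.resolve_right fun e => absurd e.2 (by decide)⟩
  · rintro ⟨⟨x, b⟩, y, d⟩ hz ⟨⟨x', b'⟩, y', d'⟩ hz' e
    simp only [mem_filter, mem_product, ky_lt, id, Prod.Lex.toLex_lt_toLex] at hz hz'
    cases b <;> cases d <;> cases b' <;> cases d' <;> simp_all only [Bool.false_eq_true, and_false, true_and, false_or,
        lt_self_iff_false, or_false, Prod.mk.injEq, and_self, false_and, true_or, and_true, Bool.true_eq_false, or_self,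
        Bool.false_lt_true] <;> omega
  · rintro ⟨x, y⟩ hz
    simp only [mem_filter, mem_product, mem_row] at hz
    exact ⟨((x, false), (y, true)), by simp only [ky_lt, Prod.Lex.toLex_lt_toLex, hz, _root_.id_eq, _root_.Finset.mem_filter, _root_.Finset.mem_product, _root_.and_self, _root_.Bool.false_eq_true, _root_.false_and, _root_.or_false, _root_.true_or], rfl⟩

theorem alt_fp {Φ : (Fin M → Pt) → ℤ} (hΦ : AltT Φ) (h : #u = M) {S : Finset ℕ} (hS : S ⊆ sing u) :
    Φ (fp S ∘ tup M u) = eu u * eu (u.image (fp S)) * Φ (tup M (u.image (fp S))) := by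
  have h0 := (fp_inj S).comp (tup_inj h)
  have h1 : univ.image (fp S ∘ tup M u) = u.image (fp S) := by rw [← image_image, image_tup h]
  have h2 := alt_eq (sgn2_alt (cp_anti (toLex : Pt → ℕ ×ₗ Bool))) h0
  rw [h1, sgn2_pos (h1 ▸ card_image' h0), smul_eq_mul] at h2
  have h3 : sgn2 (cp (toLex : Pt → ℕ ×ₗ Bool)) (fp S ∘ tup M u) = eu u := by
    rw [← sgn2_pos h]
    refine prod_congr rfl fun i _ => prod_congr rfl fun k hk => ?_
    have h4 := (tup_inj h).ne (mem_Ioi.1 hk).ne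
    have h5 := tup_mem h i
    have h6 := tup_mem h k
    simp only [Function.comp]
    generalize tup M u i = a, tup M u k = b at *
    obtain ⟨x, c⟩ := a
    obtain ⟨y, d⟩ := b
    by_cases e : x = y
    · subst e
      have h7 : x ∉ S := fun e => mem_sing.1 (hS e) (by cases c <;> cases d <;> simp_all only [mem_univ, mem_Ioi, ne_eq,
          not_true_eq_false, Prod.mk.injEq, Bool.false_eq_true, and_false, not_false_eq_true, Bool.true_eq_false])
      simp [fp, h7]
    · simp [cp, fp, Prod.Lex.toLex_lt_toLex, e, Ne.symm e]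
  rw [alt_eq hΦ h0, h1, smul_eq_mul, ← h3, h2, mul_assoc _ (eu _) (eu _), eu_sq, mul_one]

/-- **the Fourier matrix** -/
def rho (M : ℕ) (u w : Finset Pt) : ℤ := rh (tup M u) (tup M w)

theorem rho_comm (u w : Finset Pt) : rho M u w = rho M w u := rh_comm _ _

theorem rho_fam (hu : #u = M) (hw : #w = M) (h : rho M u w ≠ 0) : u ∈ Fam w := by
  rw [rho, rh_eq] at h
  obtain ⟨σ, -, hσ⟩ := exists_ne_zero_of_sum_ne_zero h
  replace hσ := (ite_ne_right_iff.1 hσ).1
  have h1 : ∀ (u : Finset Pt) (x : ℕ), ∑ a ∈ u, (if a.1 = x then 1 else 0 : ℕ) =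
      (if (x, false) ∈ u then 1 else 0) + if (x, true) ∈ u then 1 else 0 := fun u x => by
    simp only [sum_row, sum_ite_eq', mem_row]
  have h2 : ∀ x : ℕ, ∑ a ∈ u, (if a.1 = x then 1 else 0 : ℕ) = ∑ a ∈ w, (if a.1 = x then 1 else 0 : ℕ) := fun x => by
    rw [← sum_tup hu, ← sum_tup hw, ← Equiv.sum_comp σ fun i => (if (tup M w i).1 = x then 1 else 0 : ℕ)]
    simp only [hσ]
  simp only [h1] at h2
  refine mem_Fam.2 ⟨?_, ?_⟩ <;> ext x <;> have h3 := h2 x <;> simp only [mem_dbl, mem_sing] <;> split_ifs at h3 <;> simp_all only [ne_eq,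
      sum_boole, Nat.cast_id, Nat.reduceAdd, and_self, add_zero, OfNat.ofNat_ne_one, zero_add, OfNat.ofNat_ne_zero,
      OfNat.one_ne_ofNat, and_false, and_true, one_ne_zero, OfNat.zero_ne_ofNat, zero_ne_one, not_true_eq_false, iff_false,
      not_false_eq_true, iff_true]

theorem rho_flip (hu : #u = M) (hw : #w = M) (h : v ∈ Fam u) :
    rho M v w = eu u * eu v * (-1) ^ #(row w true ∩ symmDiff (low u) (low v)) * rho M u w := by
  have h1 := alt_fp (rh_alt (tup M w)) hu (S := symmDiff (low u) (low v))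
    (symmDiff_subset_union.trans (union_subset (low_subset u) ((mem_Fam.1 h).2 ▸ low_subset v)))
  rw [image_fp h, rh_fp _ _ hw] at h1
  rw [mul_assoc _ _ (rho M u w), rho, rho, h1, ← mul_assoc, mul_mul_mul_comm, eu_sq, eu_sq, one_mul, one_mul]

theorem rho_unit {L : Finset (Finset Pt)} (hL : ∀ w ∈ L, #w = M) (hv : #v = M) (hw : #w = M) (h : Fam w ⊆ L) :
    ∑ u ∈ L, rho M v u * rho M u w = if v = w then 2 ^ M else 0 := by
  have h1 := R_R (fun y => pr y (tup M w)) (tup M v)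
  rw [show R (fun y => pr y (tup M w)) = fun τ => rh τ (tup M w) from rfl, R_expand (rh_alt _) hL fun e he => ?_,
    pr_tup hv hw, mul_ite, mul_one, mul_zero] at h1
  · exact h1
  · have h2 := (rh_alt _).inj he
    rw [alt_eq (rh_alt _) h2] at he
    exact h (rho_fam (card_image' h2) hw (right_ne_zero_of_smul he))

theorem rho_sq (hw : #w = M) (h : u ∈ Fam w) : rho M u w * rho M u w = 4 ^ #(dbl w) := by
  have h1 : ∀ u ∈ Fam w, rho M u w * rho M u w = rho M w w * rho M w w := fun u h => by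
    rw [rho_flip hw hw h, mul_mul_mul_comm, mul_mul_mul_comm (eu w * eu u), mul_mul_mul_comm (eu w), eu_sq, eu_sq, ← mul_pow]
    simp
  have h2 := rho_unit (fun u hu => (card_fam hu).trans hw) hw hw Subset.rfl
  rw [if_pos rfl, sum_congr rfl fun u hu => by rw [rho_comm w u, h1 u hu], sum_Fam, sum_const, card_powerset, ← hw, card_eq,
    nsmul_eq_mul, pow_add, pow_mul, mul_comm, Nat.cast_pow] at h2
  rw [h1 u h]
  exact mul_right_cancel₀ (pow_ne_zero _ two_ne_zero) (by simp only [← hw, card_eq]; exact h2)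

/-! ### the vacuum -/

/-- the vacuum label -/
def V0 (M : ℕ) : Finset Pt := fm (range (M / 2)) (Ico (M / 2) (M / 2 + M % 2)) ∅

theorem V0_spec (M : ℕ) : dbl (V0 M) = range (M / 2) ∧ sing (V0 M) = Ico (M / 2) (M / 2 + M % 2) ∧ low (V0 M) = ∅ :=
  fm_spec (disjoint_left.2 fun x h h' => by simp only [mem_range, mem_Ico] at h h'; omega) (empty_subset _)

theorem card_V0 (M : ℕ) : #(V0 M) = M := by
  rw [card_eq, (V0_spec M).1, (V0_spec M).2.1, card_range, Nat.card_Ico]; omega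

theorem tup_V0 (M : ℕ) : tup M (V0 M) = v0 M := by
  have h : univ.image (v0 M) = V0 M := by
    refine eq_of_subset_of_card_le (fun a ha => ?_) ?_
    · obtain ⟨i, -, rfl⟩ := mem_image.1 ha
      have := i.2
      unfold v0 V0
      split_ifs <;> simp only [mem_fm_false, mem_fm_true, mem_range, mem_Ico, notMem_empty, not_false_iff, and_true, or_false] <;>
        omega
    · rw [card_V0, card_image' fun i j e => ?_]
      unfold v0 at e
      split_ifs at e <;> simp only [Prod.mk.injEq, and_true, Bool.false_eq_true, and_false, Bool.true_eq_false] at e <;> omega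
  rw [← h, tup_image fun i j hij => ?_]
  have := Fin.lt_def.1 hij
  simp only [ky_lt, v0]
  split_ifs <;> simp only [and_false, Fin.val_fin_lt, true_and, false_or, gt_iff_lt, and_self, false_and, or_false, or_self,
      and_true] <;> omega

theorem v1_eq (h : M % 2 = 1) : v1 M = fp {M / 2} ∘ v0 M := funext fun i => by
  have := i.2
  simp only [v1, v0, fp, Function.comp, mem_singleton]
  split_ifs <;> simp <;> omega

theorem R_vc (h : #u = M) : R vc (tup M u) = (if M % 2 = 1 then 1 + (-1) ^ #(row u true ∩ {M / 2}) else 1) * rho M u (V0 M) := by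
  have h1 : R vc (tup M u) = rh (tup M u) (v0 M) + if M % 2 = 1 then rh (tup M u) (v1 M) else 0 := by
    simp only [R, rh, vc, mul_add, sum_add_distrib]
    split_ifs <;> simp only [mul_zero, sum_const_zero, add_zero]
  rw [h1, rho, tup_V0]
  split_ifs with e
  · rw [v1_eq e, rh_comm _ (_ ∘ _), rh_fp _ _ h, rh_comm (v0 M)]
    ring
  · rw [add_zero, one_mul]

/-- the constant of the rotation of the vacuum -/
def cc (M : ℕ) : ℤ := R vc (v0 M)

theorem cc_sq (M : ℕ) : cc M * cc M = 4 ^ ((M + 1) / 2) := by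
  have h1 : row (V0 M) true ∩ {M / 2} = ∅ := by
    ext x
    simp only [mem_inter, mem_row, V0, mem_fm_true, mem_range, mem_singleton, notMem_empty, or_false, iff_false]
    omega
  rw [cc, ← tup_V0, R_vc (card_V0 M), mul_mul_mul_comm, rho_sq (card_V0 M) (mem_Fam.2 ⟨rfl, rfl⟩), (V0_spec M).1, card_range, h1]
  split_ifs with e
  · rw [show (M + 1) / 2 = M / 2 + 1 by omega, pow_succ]
    simp [mul_comm]
  · rw [show (M + 1) / 2 = M / 2 by omega, one_mul, one_mul]

theorem cc_ne (M : ℕ) : cc M ≠ 0 := fun e => by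
  have := cc_sq M
  rw [e, zero_mul] at this
  exact pow_ne_zero _ four_ne_zero this.symm

theorem R_vc_eq (τ : Fin M → Pt) : R vc τ = cc M * pr τ (v0 M) := by
  rw [alt_expand (R_alt vc_alt) (L := {V0 M}) (fun w hw => mem_singleton.1 hw ▸ card_V0 M) fun h => ?_, sum_singleton, tup_V0,
    mul_comm, cc]
  have h2 := (R_alt vc_alt).inj h
  rw [alt_eq (R_alt vc_alt) h2, R_vc (card_image' h2)] at h
  obtain ⟨h3, h4⟩ := mul_ne_zero_iff.1 (right_ne_zero_of_smul h)
  obtain ⟨h5, h6⟩ := mem_Fam.1 (rho_fam (card_image' h2) (card_V0 M) h4)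
  refine mem_singleton.2 (eq_of_low h5 h6 ((V0_spec M).2.2 ▸ eq_empty_of_forall_notMem fun x hx => ?_))
  have h7 := mem_Ico.1 ((V0_spec M).2.1 ▸ h6 ▸ low_subset _ hx)
  rw [if_pos (by omega), inter_singleton_of_mem (mem_row.2 (by rw [show M / 2 = x by omega]; exact (mem_low.1 hx).1))] at h3
  simp at h3

/-! ### the orthonormal system -/

theorem R_cons (c : Cy) (s : Multiset Cy) (τ : Fin M → Pt) : R (YM (c ::ₘ s)) τ =
    ∑ j, if c.1 ≤ (τ j).1 then wg c.2 (τ j).2 * R (YM s) (Function.update τ j ((τ j).1 - c.1, (τ j).2)) else 0 := by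
  rw [show YM (c ::ₘ s) = _ from funext (YM_cons c s), R_sum]
  refine sum_congr rfl fun j _ => ?_
  split_ifs with h
  · rw [← R_step (YM s) τ j (fun x => x - c.1) c.2]
    exact R_congr fun e => if_pos h
  · exact sum_eq_zero fun e _ => mul_eq_zero_of_right _ (if_neg h)

/-- the characters of the group of signed permutations, on tuples -/
def XM (s : Multiset Cy) (τ : Fin M → Pt) : ℤ := R (YM s) τ / cc M

theorem R_YM (s : Multiset Cy) (τ : Fin M → Pt) : R (YM s) τ = cc M * XM s τ := by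
  refine (Int.mul_ediv_cancel' ?_).symm
  induction s using Multiset.induction_on generalizing τ with
  | empty => exact ⟨_, R_vc_eq τ⟩
  | cons c s ih =>
    rw [R_cons]
    exact dvd_sum fun j _ => by split_ifs; exacts [(ih _).mul_left _, dvd_zero _]

theorem XM_zero (τ : Fin M → Pt) : XM 0 τ = pr τ (v0 M) := mul_left_cancel₀ (cc_ne M) ((R_YM 0 τ).symm.trans (R_vc_eq τ))

theorem XM_cons (c : Cy) (s : Multiset Cy) (τ : Fin M → Pt) : XM (c ::ₘ s) τ =
    ∑ j, if c.1 ≤ (τ j).1 then wg c.2 (τ j).2 * XM s (Function.update τ j ((τ j).1 - c.1, (τ j).2)) else 0 := by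
  refine mul_left_cancel₀ (cc_ne M) ?_
  simp only [← R_YM, R_cons, mul_sum, mul_ite, mul_zero, mul_left_comm (cc M)]

theorem XM_alt (s : Multiset Cy) : AltT (XM (M := M) s) := fun σ τ => mul_left_cancel₀ (cc_ne M) (by
  rw [← R_YM, R_alt (YM_alt s), R_YM, smul_eq_mul, smul_eq_mul, mul_left_comm])

theorem YM_eq (s : Multiset Cy) (τ : Fin M → Pt) : 2 ^ M * YM s τ = cc M * R (XM s) τ := by
  rw [← R_R, ← R_mul, show R (YM s) = _ from funext (R_YM s)]

theorem sum_v0 {A : Type*} [AddCommMonoid A] (f : Pt → A) : ∑ i, f (v0 M i) = ∑ a ∈ V0 M, f a := by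
  rw [← tup_V0, sum_tup (card_V0 M)]

theorem sum_update {A : Type*} [AddCommMonoid A] (f : Pt → A) (τ : Fin M → Pt) (j : Fin M) (b : Pt) :
    ∑ i, f (Function.update τ j b i) + f (τ j) = ∑ i, f (τ i) + f b := by
  rw [← add_sum_erase _ _ (mem_univ j), ← add_sum_erase _ _ (mem_univ j), Function.update_self,
    sum_congr rfl fun i hi => by rw [Function.update_of_ne (ne_of_mem_erase hi)]]
  abel

theorem XM_row (s : Multiset Cy) {τ : Fin M → Pt} (h : XM s τ ≠ 0) : ∑ i, (τ i).2.toNat = M / 2 := by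
  induction s using Multiset.induction_on generalizing τ with
  | empty =>
    obtain ⟨σ, rfl⟩ := pr_ne (XM_zero τ ▸ h)
    rw [show ∑ i, ((v0 M ∘ σ) i).2.toNat = _ from Equiv.sum_comp σ fun i => (v0 M i).2.toNat, sum_v0 fun a => a.2.toNat,
      sum_row]
    simp [card_row_true, V0_spec]
  | cons c s ih =>
    obtain ⟨j, -, hj⟩ := exists_ne_zero_of_sum_ne_zero (XM_cons c s τ ▸ h)
    have h1 := sum_update (fun a => a.2.toNat) τ j ((τ j).1 - c.1, (τ j).2)
    rw [ih (right_ne_zero_of_mul (ite_ne_right_iff.1 hj).2)] at h1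
    exact (Nat.add_right_cancel h1).symm

theorem sum_V0 (M : ℕ) : ∑ a ∈ V0 M, a.1 = M / 2 * ((M - 1) / 2) := by
  have h1 := sum_range_id_mul_two (M / 2)
  rw [sum_pos (V0 M) fun x => x, (V0_spec M).1, (V0_spec M).2.1, smul_eq_mul, mul_comm, h1]
  rcases Nat.mod_two_eq_zero_or_one M with h | h
  · rw [h, show (M - 1) / 2 = M / 2 - 1 by omega]
    simp
  · rw [h, show (M - 1) / 2 = M / 2 by omega, Nat.Ico_succ_singleton, sum_singleton]
    cases M / 2 with
    | zero => rfl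
    | succ k => rw [Nat.add_sub_cancel]; ring

theorem YT_rk (κ : Kn) (s : Multiset Cy) {τ : Fin M → Pt} (h : YT κ s τ ≠ 0) :
    ∑ i, ps κ (τ i) = (s.map Prod.fst).sum + bs κ M := by
  induction s using Multiset.induction_on generalizing τ with
  | empty =>
    have h1 : ∀ β : Fin M → ℕ, vac β ≠ 0 → ∑ i, β i = 0 + M * (M - 1) / 2 := fun β h => by
      rw [by_contra fun e => h (vac_eq_zero_of_sum e), Fin.sum_univ_eq_sum_range (fun i => i), sum_range_id, zero_add]
    have h2 : vc τ ≠ 0 → ∑ i, (τ i).1 = 0 + M / 2 * ((M - 1) / 2) := fun h => by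
      rw [zero_add, ← sum_V0, ← sum_v0]
      by_cases e : pr τ (v0 M) = 0
      · rw [vc, e, zero_add] at h
        obtain ⟨h3, h4⟩ := ite_ne_right_iff.1 h
        obtain ⟨σ, rfl⟩ := pr_ne h4
        rw [v1_eq h3]
        exact Equiv.sum_comp σ fun i => (v0 M i).1
      · obtain ⟨σ, rfl⟩ := pr_ne e
        exact Equiv.sum_comp σ fun i => (v0 M i).1
    cases κ
    exacts [h1 _ h, h1 _ h, h2 h, h2 h]
  | cons c s ih =>
    obtain ⟨j, -, hj⟩ := exists_ne_zero_of_sum_ne_zero (YT_cons κ c s τ ▸ h)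
    obtain ⟨h1, h2⟩ := ite_ne_right_iff.1 hj
    have h3 := sum_update (ps κ) τ j (mk κ c (τ j))
    rw [ih h2, ps_mk] at h3
    rw [Multiset.map_cons, Multiset.sum_cons]
    omega

theorem XM_rk (s : Multiset Cy) {τ : Fin M → Pt} (h : XM s τ ≠ 0) : ∑ i, (τ i).1 = (s.map Prod.fst).sum + bs .B M := by
  obtain ⟨e, -, he⟩ := exists_ne_zero_of_sum_ne_zero (R_YM s τ ▸ mul_ne_zero (cc_ne M) h)
  exact YT_rk .B s (τ := wr τ e) (right_ne_zero_of_mul he)

/-- **the orthonormal system** -/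
def XK : Kn → (M : ℕ) → Multiset Cy → Finset Pt → ℤ
  | .A, M, s, u => YK .A M s u
  | .U, M, s, u => YK .U M s u
  | _, M, s, u => XM s (tup M u)

/-- its index set -/
def LabX : Kn → ℕ → ℕ → Finset (Finset Pt)
  | .A, M, n => Lab .A M n
  | .U, M, n => Lab .U M n
  | κ, M, n => {w ∈ Lab κ M n | #(row w true) = M / 2}

theorem XK_box (κ : Kn) (s : Multiset Cy) (h : #u = M) : XK κ M (bc κ ::ₘ s) u = ∑ a ∈ rem u, XK κ M s (bx u a) := by
  have h1 : XM ((1, 1) ::ₘ s) (tup M u) = ∑ a ∈ rem u, XM s (tup M (bx u a)) := by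
    rw [XM_cons, ← alt_down (XM_alt s) h]
    exact sum_congr rfl fun j _ => if_congr Iff.rfl (by simp [wg]) rfl
  cases κ
  exacts [YK_box .A s h, YK_box .U s h, h1, h1]

theorem sum_toNat (u : Finset Pt) : ∑ a ∈ u, a.2.toNat = #(row u true) := by simp [sum_row]

theorem XK_ne {κ : Kn} (hκ : κ = .B ∨ κ = .D) {s : Multiset Cy} {τ : Fin M → Pt} (h : XM s τ ≠ 0) :
    univ.image τ ∈ LabX κ M (s.map Prod.fst).sum := by
  have h1 := (XM_alt s).inj h
  have h2 := XM_row s h
  have h3 := XM_rk s h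
  rw [← sum_image (f := fun a : Pt => a.2.toNat) h1.injOn, sum_toNat] at h2
  rw [← sum_image (f := fun a : Pt => a.1) h1.injOn] at h3
  rcases hκ with rfl | rfl <;> exact mem_filter.2 ⟨mem_Lab.2 ⟨card_image' h1, h3, fun e => nomatch e⟩, h2⟩

theorem YK_ne {κ : Kn} (hκ : κ = .B ∨ κ = .D) {s : Multiset Cy} {τ : Fin M → Pt} (h : YM s τ ≠ 0) :
    univ.image τ ∈ Lab κ M (s.map Prod.fst).sum := by
  have h1 := (YM_alt s).inj h
  have h3 := YT_rk .B s h
  rw [← sum_image (f := ps .B) h1.injOn] at h3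
  rcases hκ with rfl | rfl <;> exact mem_Lab.2 ⟨card_image' h1, h3, fun e => nomatch e⟩

theorem LabX_subset (κ : Kn) (M n : ℕ) : LabX κ M n ⊆ Lab κ M n := by
  cases κ
  exacts [Subset.rfl, Subset.rfl, filter_subset _ _, filter_subset _ _]

theorem YK_expand {κ : Kn} (hκ : κ = .B ∨ κ = .D) (s : Multiset Cy) (u : Finset Pt) :
    2 ^ M * YK κ M s u = cc M * ∑ w ∈ LabX κ M (s.map Prod.fst).sum, rho M u w * XK κ M s w := by
  have h1 := YM_eq s (tup M u)
  rw [R_expand (XM_alt s) (fun w hw => (mem_Lab.1 (LabX_subset _ _ _ hw)).1) fun e => XK_ne hκ] at h1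
  rcases hκ with rfl | rfl <;> exact h1

theorem XK_expand {κ : Kn} (hκ : κ = .B ∨ κ = .D) (s : Multiset Cy) (w : Finset Pt) :
    cc M * XK κ M s w = ∑ u ∈ Lab κ M (s.map Prod.fst).sum, rho M w u * YK κ M s u := by
  have h1 := R_YM s (tup M w)
  rw [R_expand (YM_alt s) (fun w hw => (mem_Lab.1 hw).1) fun e => YK_ne hκ] at h1
  rcases hκ with rfl | rfl <;> exact h1.symm

theorem Fam_subset {κ : Kn} (hκ : κ = .B ∨ κ = .D) {n : ℕ} (h : u ∈ Lab κ M n) : Fam u ⊆ Lab κ M n := fun v hv => by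
  obtain ⟨h1, h2, -⟩ := mem_Lab.1 h
  rcases hκ with rfl | rfl <;>
    exact mem_Lab.2 ⟨(card_fam hv).trans h1, (sum_pos_fam hv fun x => x).trans h2, fun e => nomatch e⟩

theorem lev_fam {κ : Kn} (hκ : κ = .B ∨ κ = .D) (h : v ∈ Fam u) : lev κ v = lev κ u := by
  rcases hκ with rfl | rfl <;> exact sum_pos_fam h fun x => (x : ℤ) ^ 2

/-! ### the exchange of the rows -/

theorem YM_flip (s : Multiset Cy) (τ : Fin M → Pt) : YM s ((fun a : Pt => (a.1, !a.2)) ∘ τ) = (-1) ^ (M / 2) * YM s τ := by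
  refine mul_left_cancel₀ (pow_ne_zero M two_ne_zero) ?_
  have h1 := R_flip (XM s) τ fun _ => true
  rw [R_congr (τ := τ) (G := fun x => (-1) ^ (M / 2) * XM s x) fun e => ?_, R_mul] at h1
  · rw [mul_left_comm, YM_eq, YM_eq, mul_left_comm, ← h1]
    congr 2
    funext j
    simp [wr]
  · by_cases h : XM s (wr τ e) = 0
    · simp only [h, mul_zero]
    · rw [← XM_row s h, ← prod_pow_eq_pow_sum]
      exact congrArg₂ _ (prod_congr rfl fun j _ => by cases (wr τ e j).2 <;> rfl) rfl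

/-- **the exchange of the rows** -/
theorem bSwap : BSwap := fun κ M s u hκ h => by
  have h1 := alt_map (YM_alt s) h (f := fun a : Pt => (a.1, !a.2)) fun a _ b _ e => by simpa [Prod.ext_iff] using e
  have h2 : #{z ∈ u ×ˢ u | ky z.1 < ky z.2 ∧ ky (z.2.1, !z.2.2) < ky (z.1.1, !z.1.2)} = #(row u false) * #(row u true) := by
    rw [← card_product]
    refine card_bij (fun z _ => (z.1.1, z.2.1)) ?_ ?_ ?_
    · rintro ⟨⟨x, b⟩, y, d⟩ hz
      simp only [mem_filter, mem_product, ky_lt, mem_row] at hz ⊢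
      cases b <;> cases d <;> simp_all only [Int.reduceNeg, Int.zsmul_eq_mul, Bool.false_eq_true, and_false, true_and,
          false_or, Bool.not_false, Bool.true_eq_false, and_true, and_self, false_and, or_false, Bool.not_true, or_self] <;> omega
    · rintro ⟨⟨x, b⟩, y, d⟩ hz ⟨⟨x', b'⟩, y', d'⟩ hz' e
      simp only [mem_filter, mem_product, ky_lt] at hz hz'
      cases b <;> cases d <;> cases b' <;> cases d' <;> simp_all only [Int.reduceNeg, Int.zsmul_eq_mul, Bool.false_eq_true,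
          and_false, true_and, false_or, Bool.not_false, Bool.true_eq_false, and_true, Prod.mk.injEq, and_self, false_and,
          or_false, Bool.not_true, or_self] <;> omega
    · rintro ⟨x, y⟩ hz
      simp only [mem_product, mem_row] at hz
      exact ⟨((x, false), (y, true)), by simp [ky_lt, hz], rfl⟩
  rw [YM_flip, h2, smul_eq_mul] at h1
  have h3 : YM s (tup M (sw' u)) = (-1) ^ (#(row u false) * #(row u true) + M / 2) * YM s (tup M u) := by
    rw [pow_add, mul_assoc, h1, ← mul_assoc, ← mul_pow]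
    simp [sw']
  rcases hκ with rfl | rfl <;> exact h3

example := And.intro @XK.eq_def (And.intro @XK.eq_1 (And.intro @XK.eq_2 @XK.eq_3))
example := And.intro @LabX.eq_def (And.intro @LabX.eq_1 (And.intro @LabX.eq_2 @LabX.eq_3))
example := And.intro @gg.eq_1 (And.intro @wr.eq_1 (And.intro @R.eq_1 (And.intro @wg.eq_1 (And.intro @rh.eq_1 @fp.eq_1))))
example := And.intro @fm.eq_1 (And.intro @Fam.eq_1 (And.intro @rho.eq_1 (And.intro @V0.eq_1 (And.intro @cc.eq_1 @XM.eq_1))))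

end Cfsg.Agent.MO.J
end

-- part: MO/J/Ph
section
/-!
# MO-J: the orthonormal system as induced characters (helper90)

* `Ph T β γ g` (as `LV.Cl.MN.Ph`, tuples of any sizes), `Ph_step`;
* `ap β γ` the tuple with the rows `β`, `γ`; `XM_ap : XM (sty T g) (ap β γ) = Ph T β γ g`;
* `exists_ap`, `image_ap` : the labels in `LabX` are the pairs of increasing tuples;
* `X κ M T w g`; the boxes `BXo` (orthonormal), `BXc` (complete), `BXcas` (eigenvalues).
-/

set_option autoImplicit false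
set_option linter.unusedSectionVars false

namespace Cfsg.Agent.MO.J

open Equiv Finset Cfsg.Agent.H614
open Cfsg.Agent.LV.Cl (SG On Stab cyc sw tt sgn HasTy tyO)
open Cfsg.Agent.LV.Cl.Cj Cfsg.Agent.MO.J.MN

variable {n a b M : ℕ} {T : Finset (Fin n)} {g : SG n} {x : Fin n} {w : Finset Pt}

/-- the characters of the group of signed permutations of `T` -/
noncomputable def Ph (T : Finset (Fin n)) (β : Fin a → ℕ) (γ : Fin b → ℕ) (g : SG n) : ℤ :=
  ∑ A ∈ T.powerset with Stab A g.π, FM (tyO g.π A) β * FM (tyO g.π (T \ A)) γ * ∏ j ∈ T \ A, (g.s j : ℤ)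

theorem Ph_empty (β : Fin a → ℕ) (γ : Fin b → ℕ) (g : SG n) : Ph ∅ β γ g = vac β * vac γ := by
  rw [Ph, powerset_empty, filter_singleton, if_pos (show Stab ∅ g.π from fun _ => by simp), sum_singleton, sdiff_self,
    bot_eq_empty, tyO_empty, prod_empty, mul_one, FM_zero, FM_zero]

theorem Ph_split (hT : Stab T g.π) (hx : x ∈ T) (β : Fin a → ℕ) (γ : Fin b → ℕ) : Ph T β γ g =
    ∑ A ∈ (T \ cyc g.π x).powerset with Stab A g.π, (FM (#(cyc g.π x) ::ₘ tyO g.π A) β * FM (tyO g.π ((T \ cyc g.π x) \ A)) γ +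
      ((∏ j ∈ cyc g.π x, g.s j : ℤˣ) : ℤ) * (FM (tyO g.π A) β * FM (#(cyc g.π x) ::ₘ tyO g.π ((T \ cyc g.π x) \ A)) γ)) *
        ∏ j ∈ (T \ cyc g.π x) \ A, (g.s j : ℤ) := by
  have hc := stab_cyc g.π x
  have hm := self_mem g.π x
  simp only [add_mul, sum_add_distrib]
  rw [Ph, ← sum_filter_add_sum_filter_not _ fun A => x ∈ A]
  congr 1
  · refine sum_bij' (fun A _ => A \ cyc g.π x) (fun A _ => A ∪ cyc g.π x) (fun A hA => ?_) (fun A hA => ?_) (fun A hA => ?_)
      (fun A hA => ?_) fun A hA => ?_ <;> simp only [mem_filter, mem_powerset] at hA ⊢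
    · exact ⟨sdiff_subset_sdiff_left _ hA.1.1, stab_sdiff hA.1.2 hc⟩
    · exact ⟨⟨union_subset (hA.1.trans sdiff_subset) (cyc_subset hT hx), fun y => by rw [mem_union, mem_union, hA.2, hc]⟩,
        mem_union_right _ hm⟩
    · exact sdiff_union_of_subset (cyc_subset hA.1.2 hA.2)
    · exact union_sdiff_cancel_right (subset_sdiff.1 hA.1).2
    · have h1 : (T \ cyc g.π x) \ (A \ cyc g.π x) = T \ A := by
        rw [sdiff_sdiff_left, sup_eq_union, union_sdiff_of_subset (cyc_subset hA.1.2 hA.2)]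
      rw [h1, tyO_step hA.1.2 hA.2]
  · refine sum_congr (Finset.ext fun A => ?_) fun A hA => ?_ <;> simp only [mem_filter, mem_powerset] at *
    · refine ⟨fun h => ⟨subset_sdiff.2 ⟨h.1.1, disjoint_left.2 fun y hy hy' => h.2 ?_⟩, h.1.2⟩,
        fun h => ⟨⟨h.1.trans sdiff_subset, h.2⟩, fun h1 => (mem_sdiff.1 (h.1 h1)).2 hm⟩⟩
      exact cyc_subset h.1.2 hy (cyc_eq hy' ▸ hm)
    · have h1 : x ∈ T \ A := mem_sdiff.2 ⟨hx, fun h1 => (mem_sdiff.1 (hA.1 h1)).2 hm⟩
      have h2 := stab_sdiff hT hA.2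
      rw [tyO_step h2 h1, ← prod_sdiff (cyc_subset h2 h1), sdiff_right_comm, Units.coe_prod]
      ring

theorem Ph_step (hT : Stab T g.π) (hx : x ∈ T) (β : Fin a → ℕ) (γ : Fin b → ℕ) : Ph T β γ g =
    ∑ j, (if #(cyc g.π x) ≤ β j then Ph (T \ cyc g.π x) (H614.dn β j #(cyc g.π x)) γ g else 0) +
      ((∏ j ∈ cyc g.π x, g.s j : ℤˣ) : ℤ) *
        ∑ j, if #(cyc g.π x) ≤ γ j then Ph (T \ cyc g.π x) β (H614.dn γ j #(cyc g.π x)) g else 0 := by
  rw [Ph_split hT hx]
  simp only [FM_cons, Ph, add_mul, sum_add_distrib, sum_mul, mul_sum, ite_mul, mul_ite, zero_mul, mul_zero]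
  congr 1 <;> rw [sum_comm] <;> refine sum_congr rfl fun j _ => ?_ <;> split_ifs
  · rfl
  · exact sum_const_zero
  · exact sum_congr rfl fun _ _ => mul_assoc _ _ _
  · exact sum_const_zero

/-- the indices of the two rows -/
def ee (M : ℕ) : Fin ((M + 1) / 2) ⊕ Fin (M / 2) ≃ Fin M := finSumFinEquiv.trans (finCongr (by omega))

theorem ee_inl (i : Fin ((M + 1) / 2)) : (ee M (Sum.inl i) : ℕ) = i := rfl

theorem ee_inr (j : Fin (M / 2)) : (ee M (Sum.inr j) : ℕ) = (M + 1) / 2 + j := rfl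

/-- the tuple with the rows `β` and `γ` -/
def ap (β : Fin ((M + 1) / 2) → ℕ) (γ : Fin (M / 2) → ℕ) (i : Fin M) : Pt :=
  Sum.elim (fun i => (β i, false)) (fun j => (γ j, true)) ((ee M).symm i)

variable {β β' : Fin ((M + 1) / 2) → ℕ} {γ γ' : Fin (M / 2) → ℕ}

theorem ap_inl (i : Fin ((M + 1) / 2)) : ap β γ (ee M (Sum.inl i)) = (β i, false) := by simp [ap]

theorem ap_inr (j : Fin (M / 2)) : ap β γ (ee M (Sum.inr j)) = (γ j, true) := by simp [ap]

theorem sum_ee {A : Type*} [AddCommMonoid A] (f : Fin M → A) :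
    ∑ i, f i = ∑ i, f (ee M (Sum.inl i)) + ∑ j, f (ee M (Sum.inr j)) := by
  rw [← Equiv.sum_comp (ee M), Fintype.sum_sum_type]

theorem ext_ee {A : Type*} {f f' : Fin M → A} (h1 : ∀ i, f (ee M (Sum.inl i)) = f' (ee M (Sum.inl i)))
    (h2 : ∀ j, f (ee M (Sum.inr j)) = f' (ee M (Sum.inr j))) : f = f' := funext fun i => by
  obtain ⟨i | j, rfl⟩ := (ee M).surjective i
  exacts [h1 i, h2 j]

theorem update_inl (i : Fin ((M + 1) / 2)) (y : ℕ) :
    Function.update (ap β γ) (ee M (Sum.inl i)) (y, false) = ap (Function.update β i y) γ := by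
  refine ext_ee (fun k => ?_) fun k => ?_
  · simp only [Function.update_apply, ap_inl, (ee M).apply_eq_iff_eq, Sum.inl.injEq]
    split_ifs <;> rfl
  · simp [ap_inr]

theorem update_inr (j : Fin (M / 2)) (y : ℕ) :
    Function.update (ap β γ) (ee M (Sum.inr j)) (y, true) = ap β (Function.update γ j y) := by
  refine ext_ee (fun k => ?_) fun k => ?_
  · simp [ap_inl]
  · simp only [Function.update_apply, ap_inr, (ee M).apply_eq_iff_eq, Sum.inr.injEq]
    split_ifs <;> rfl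

theorem ap_comp (σ : Perm (Fin ((M + 1) / 2))) (τ : Perm (Fin (M / 2))) :
    ap (β ∘ σ) (γ ∘ τ) = ap β γ ∘ (ee M).permCongr (Perm.sumCongr σ τ) :=
  ext_ee (fun i => by simp [ap_inl]) fun j => by simp [ap_inr]

theorem sg_ap (σ : Perm (Fin ((M + 1) / 2))) (τ : Perm (Fin (M / 2))) :
    sg ((ee M).permCongr (Perm.sumCongr σ τ)) = sg σ * sg τ := by simp [sg]

theorem ap_id : ap (fun i => (i : ℕ)) (fun j => (j : ℕ)) = v0 M := by
  refine ext_ee (fun i => ?_) fun j => ?_
  · rw [ap_inl, v0, ee_inl, if_pos i.2]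
  · rw [ap_inr, v0, ee_inr, if_neg (by omega), Nat.add_sub_cancel_left]

theorem ap_inj (h : ap β γ = ap β' γ') : β = β' ∧ γ = γ' :=
  ⟨funext fun i => by simpa [ap_inl] using congrFun h (ee M (Sum.inl i)),
    funext fun j => by simpa [ap_inr] using congrFun h (ee M (Sum.inr j))⟩

theorem pr_ap (β β' : Fin ((M + 1) / 2) → ℕ) (γ γ' : Fin (M / 2) → ℕ) :
    pr (ap β γ) (ap β' γ') = pair β β' * pair γ γ' := by
  have h1 : Function.Injective fun z : Perm (Fin ((M + 1) / 2)) × Perm (Fin (M / 2)) => (ee M).permCongr (Perm.sumCongr z.1 z.2) :=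
    fun z z' e => Perm.sumCongrHom_injective ((ee M).permCongr.injective e)
  delta pair
  rw [sum_mul_sum, ← Fintype.sum_prod_type', pr]
  symm
  refine sum_of_injOn _ h1.injOn (fun _ _ => mem_univ _) (fun σ _ hσ => if_neg fun e => hσ ?_) fun z _ => ?_
  · have h2 : ∀ i, ∃ k, σ (ee M (Sum.inl i)) = ee M (Sum.inl k) := fun i => by
      obtain ⟨k | k, hk⟩ := (ee M).surjective (σ (ee M (Sum.inl i)))
      · exact ⟨k, hk.symm⟩
      · simpa only [ap_inl, ← hk, ap_inr, _root_.EmbeddingLike.apply_eq_iff_eq, _root_.reduceCtorEq, _root_.exists_false, _root_.Function.comp_apply, _root_.Prod.mk.injEq, _root_.Bool.false_eq_true, _root_.and_false] using congrFun e (ee M (Sum.inl i))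
    obtain ⟨z, hz⟩ := Perm.mem_sumCongrHom_range_of_perm_mapsTo_inl (σ := (ee M).permCongr.symm σ) (by
      rintro _ ⟨i, rfl⟩
      obtain ⟨k, hk⟩ := h2 i
      exact ⟨k, by simp [hk]⟩)
    exact ⟨z, by simp only [_root_.Finset.coe_univ, _root_.Set.mem_univ], (Equiv.eq_symm_apply _).1 hz⟩
  · rw [← ap_comp, sg_ap, ite_zero_mul_ite_zero]
    exact if_congr ⟨fun h => by rw [h.1, h.2], ap_inj⟩ rfl rfl

/-- **the orthonormal system consists of induced characters** -/
theorem XM_ap (hT : Stab T g.π) (β : Fin ((M + 1) / 2) → ℕ) (γ : Fin (M / 2) → ℕ) : XM (sty T g) (ap β γ) = Ph T β γ g := by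
  induction T using Finset.strongInduction generalizing β γ with
  | H T ih =>
    rcases T.eq_empty_or_nonempty with rfl | ⟨x, hx⟩
    · rw [sty_empty, XM_zero, Ph_empty, ← ap_id, pr_ap, vac_eq_pair, vac_eq_pair]
    · have h1 := ih _ (sdiff_ssubset (cyc_subset hT hx) ⟨x, self_mem _ _⟩) (stab_sdiff hT (stab_cyc _ _))
      rw [sty_step hT hx, Ph_step hT hx, XM_cons, sum_ee, mul_sum]
      simp only [ap_inl, ap_inr, update_inl, update_inr, h1, wg, H614.dn, mul_ite, mul_zero, if_true, Bool.false_eq_true,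
        if_false, one_mul]

theorem ap_mono (h : StrictMono β) (h' : StrictMono γ) : StrictMono fun i => ky (ap β γ i) := fun i j hij => by
  obtain ⟨i | i, rfl⟩ := (ee M).surjective i <;> obtain ⟨j | j, rfl⟩ := (ee M).surjective j <;>
    simp only [Fin.lt_def, ee_inl, ee_inr] at hij <;> simp only [ap_inl, ap_inr, ky_lt]
  · exact Or.inr ⟨trivial, h hij⟩
  · exact Or.inl ⟨trivial, trivial⟩
  · omega
  · exact Or.inr ⟨trivial, h' (Fin.lt_def.2 (by omega))⟩

theorem sum_ap {A : Type*} [AddCommMonoid A] (f : Pt → A) : ∑ i, f (ap β γ i) = ∑ i, f (β i, false) + ∑ j, f (γ j, true) := by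
  simp only [sum_ee (M := M), ap_inl, ap_inr]

/-- a label with `M / 2` beads in the second row is a pair of increasing tuples -/
theorem exists_ap (h : #w = M) (h' : #(row w true) = M / 2) :
    ∃ β γ, StrictMono β ∧ StrictMono γ ∧ tup M w = ap β γ := by
  have h1 : #(row w false) = (M + 1) / 2 := by have := card_rows w; omega
  refine ⟨_, _, ((row w false).orderEmbOfFin h1).strictMono, ((row w true).orderEmbOfFin h').strictMono, ?_⟩
  have h2 := ap_mono ((row w false).orderEmbOfFin h1).strictMono ((row w true).orderEmbOfFin h').strictMono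
  rw [← tup_image h2, eq_of_subset_of_card_le (s := univ.image _) (t := w) (fun y hy => ?_)
    (by rw [h, card_image' fun i j e => h2.injective (congrArg ky e)])]
  obtain ⟨i, -, rfl⟩ := mem_image.1 hy
  obtain ⟨i | i, rfl⟩ := (ee M).surjective i
  · rw [ap_inl]; exact mem_row.1 (orderEmbOfFin_mem _ _ _)
  · rw [ap_inr]; exact mem_row.1 (orderEmbOfFin_mem _ _ _)

theorem sum_fin_add (M : ℕ) : ∑ i : Fin ((M + 1) / 2), (i : ℕ) + ∑ j : Fin (M / 2), (j : ℕ) = bs .B M :=
  (sum_ap (β := fun i => (i : ℕ)) (γ := fun j => (j : ℕ)) Prod.fst).symm.trans (by rw [ap_id, sum_v0, sum_V0]; rfl)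

/-- a pair of increasing tuples is a label -/
theorem image_ap {κ : Kn} (hκ : κ = .B ∨ κ = .D) (h : StrictMono β) (h' : StrictMono γ) {k l : ℕ}
    (hk : ∑ i, β i = k + ∑ i : Fin ((M + 1) / 2), (i : ℕ)) (hl : ∑ j, γ j = l + ∑ j : Fin (M / 2), (j : ℕ)) :
    univ.image (ap β γ) ∈ LabX κ M (k + l) ∧ tup M (univ.image (ap β γ)) = ap β γ := by
  have h2 := ap_mono h h'
  have h1 : Function.Injective (ap β γ) := fun i j e => h2.injective (congrArg ky e)
  have h3 : ∑ y ∈ univ.image (ap β γ), y.1 = k + l + bs .B M := by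
    rw [sum_image h1.injOn, sum_ap Prod.fst, hk, hl, ← sum_fin_add]; ring
  have h4 : #(row (univ.image (ap β γ)) true) = M / 2 := by
    rw [← sum_toNat, sum_image h1.injOn, sum_ap fun y => y.2.toNat]; simp only [_root_.Bool.toNat_false, _root_.Finset.sum_const_zero, _root_.Bool.toNat_true, _root_.Finset.sum_const, _root_.Finset.card_univ, _root_.Fintype.card_fin, _root_.smul_eq_mul, _root_.mul_one, _root_.zero_add]
  refine ⟨?_, tup_image h2⟩
  rcases hκ with rfl | rfl <;> exact mem_filter.2 ⟨mem_Lab.2 ⟨card_image' h1, h3, fun e => nomatch e⟩, h4⟩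

theorem mem_LabX0 {κ : Kn} (hκ : κ = .B ∨ κ = .D) {k : ℕ} : w ∈ LabX κ M k ↔ w ∈ Lab κ M k ∧ #(row w true) = M / 2 := by
  rcases hκ with rfl | rfl <;> exact mem_filter

/-- **the orthonormal system on the group** -/
noncomputable def X (κ : Kn) (M : ℕ) (T : Finset (Fin n)) (w : Finset Pt) (g : SG n) : ℤ := XK κ M (sty T g) w

theorem X_eq_Ph {κ : Kn} (hκ : κ = .B ∨ κ = .D) (hT : Stab T g.π) (h : tup M w = ap β γ) : X κ M T w g = Ph T β γ g := by
  rw [← XM_ap hT, ← h]
  rcases hκ with rfl | rfl <;> rfl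

theorem X_eq_Y {κ : Kn} (hκ : κ = .A ∨ κ = .U) (T : Finset (Fin n)) (w : Finset Pt) : X κ M T w = Y κ M T w := by
  rcases hκ with rfl | rfl <;> rfl

theorem X_eq_FM {κ : Kn} (hκ : κ = .A ∨ κ = .U) (hT : Stab T g.π) (w : Finset Pt) :
    X κ M T w g = FM (tyO g.π T) fun i => ps κ (tup M w i) := by
  rw [tyO_eq hT]
  rcases hκ with rfl | rfl <;> rfl

/-- orthonormality -/
def BXo : Prop := ∀ κ M {n : ℕ} (T : Finset (Fin n)) (w w' : Finset Pt), w ∈ LabX κ M #T → w' ∈ LabX κ M #T →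
  ip κ T (fun g => X κ M T w g) (fun g => X κ M T w' g) = if w = w' then 1 else 0

/-- completeness -/
def BXc : Prop := ∀ κ M {n : ℕ} (T : Finset (Fin n)) (f : SG n → ℂ), Ok κ M #T → Cf κ T f →
  ∀ g ∈ Gp κ T, f g = ∑ w ∈ LabX κ M #T, ip κ T f (fun g => X κ M T w g) * X κ M T w g

/-- the sum of the reflections -/
def BXcas : Prop := ∀ κ M {n : ℕ} (T : Finset (Fin n)) (w : Finset Pt) (g : SG n), Ok κ M #T → w ∈ LabX κ M #T → Stab T g.π →
  wc κ * cas κ T (X κ M T w) g = (lev κ w - cst κ M #T) * X κ M T w g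

example := And.intro @Ph.eq_1 (And.intro @ee.eq_1 (And.intro @ap.eq_1 @X.eq_1))

end Cfsg.Agent.MO.J
end

-- part: MO/J/Bas
section
/-!
# MO-J: vanishing, the orthonormal basis (helper90)

`bZero : BZero`, `bXo : BXo`, `bXcas : BXcas`, `X_col` (column orthogonality), `bXc_of : BPars → BXc`.
-/

set_option autoImplicit false
set_option linter.unusedSectionVars false

namespace Cfsg.Agent.MO.J

open Equiv Finset Cfsg.Agent.H614 Cfsg.Agent.Characters.Core
open Cfsg.Agent.LV.Cl (SG On Stab cyc sw tt sgn HasTy tyO)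
open Cfsg.Agent.LV.Cl.Cj

variable {n a b M : ℕ} {T : Finset (Fin n)} {g : SG n} {u w : Finset Pt} {κ : Kn}

theorem kn_cases (κ : Kn) : (κ = .A ∨ κ = .U) ∨ (κ = .B ∨ κ = .D) := by cases κ <;> simp

theorem ps_tup_inj (hκ : κ = .A ∨ κ = .U) {k : ℕ} (h : u ∈ Lab κ M k) : Function.Injective fun i => ps κ (tup M u i) := by
  obtain ⟨h1, -, h3⟩ := mem_Lab.1 h
  intro i j e
  rcases hκ with rfl | rfl
  · exact tup_inj h1 (Prod.ext e ((h3 rfl _ (tup_mem h1 i)).trans (h3 rfl _ (tup_mem h1 j)).symm))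
  · exact tup_inj h1 (Pars.psU_inj e)

theorem sum_ps_tup (hκ : κ = .A ∨ κ = .U) {k : ℕ} (h : u ∈ Lab κ M k) :
    ∑ i, ps κ (tup M u i) = k + ∑ i : Fin M, (i : ℕ) := by
  rw [sum_tup (mem_Lab.1 h).1, (mem_Lab.1 h).2.1, Fin.sum_univ_eq_sum_range (fun i => i), sum_range_id]
  rcases hκ with rfl | rfl <;> rfl

theorem pair_tup (hκ : κ = .A ∨ κ = .U) {k l : ℕ} (h : u ∈ Lab κ M k) (h' : w ∈ Lab κ M l) :
    pair (fun i => ps κ (tup M u i)) (fun i => ps κ (tup M w i)) = if u = w then 1 else 0 := by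
  obtain ⟨h1, -, h3⟩ := mem_Lab.1 h
  obtain ⟨h2, -, h4⟩ := mem_Lab.1 h'
  rw [← pr_tup h1 h2]
  refine sum_congr rfl fun σ _ => if_congr ⟨fun e => funext fun i => ?_, fun e => funext fun i => ?_⟩ rfl rfl
  · replace e : ps κ (tup M u i) = ps κ (tup M w (σ i)) := congrFun e i
    rcases hκ with rfl | rfl
    · exact Prod.ext e ((h3 rfl _ (tup_mem h1 i)).trans (h4 rfl _ (tup_mem h2 _)).symm)
    · exact Pars.psU_inj e
  · exact congrArg (ps κ) (congrFun e i)

theorem mem_fam_V0 (h : #u = M) (h' : ∑ a ∈ u, a.1 = M / 2 * ((M - 1) / 2)) : u ∈ Fam (V0 M) := by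
  have h1 : range (M / 2) ⊆ dbl u := fun x hx => by
    have h2 : ∀ b, (x, b) ∈ u := fun b => by
      obtain ⟨j, hj⟩ := Pars.occ (tup_inj h) (r := M / 2) (by rw [sum_tup h fun a => a.1, h', Pars.bs_eq]) (a := (x, b))
        (mem_range.1 hx)
      exact hj ▸ tup_mem h j
    exact mem_dbl.2 ⟨h2 _, h2 _⟩
  have h2 := card_eq u
  have h3 : dbl u = range (M / 2) := (eq_of_subset_of_card_le h1 (by rw [card_range]; omega)).symm
  refine mem_Fam.2 ⟨h3.trans (V0_spec M).1.symm, ?_⟩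
  rw [h3, card_range] at h2
  rw [← sum_V0, sum_pos u fun x => x, sum_pos (V0 M) fun x => x, h3, (V0_spec M).1, add_right_inj, (V0_spec M).2.1] at h'
  rw [(V0_spec M).2.1]
  rcases Nat.mod_two_eq_zero_or_one M with e | e <;> rw [e] at h' ⊢
  · rw [card_eq_zero.1 (show #(sing u) = 0 by omega), add_zero, Ico_self]
  · obtain ⟨x, hx⟩ := card_eq_one.1 (show #(sing u) = 1 by omega)
    rw [hx, Nat.Ico_succ_singleton] at h' ⊢
    rw [sum_singleton, sum_singleton] at h'
    rw [h']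

theorem YM_sign (hM : M % 2 = 0) (s : Multiset Cy) {τ : Fin M → Pt} (h : YM s τ ≠ 0) :
    (((s.map Prod.snd).prod : ℤˣ) : ℤ) = (-1) ^ (∑ i, (τ i).2.toNat + M / 2) := by
  induction s using Multiset.induction_on generalizing τ with
  | empty =>
    rw [YM_zero, vc, if_neg (by omega), add_zero, ← XM_zero] at h
    rw [XM_row 0 h, ← two_mul, pow_mul]
    simp only [_root_.Multiset.map_zero, _root_.Multiset.prod_zero, _root_.Units.val_one, _root_.Int.reduceNeg, _root_.even_two, _root_.Even.neg_pow, _root_.one_pow]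
  | cons c s ih =>
    obtain ⟨j, -, hj⟩ := exists_ne_zero_of_sum_ne_zero (YM_cons c s τ ▸ h)
    have h1 := sum_update (fun a => a.2.toNat) τ j (mv c (τ j))
    rw [Multiset.map_cons, Multiset.prod_cons, Units.val_mul, ih (ite_ne_right_iff.1 hj).2, dn]
    simp only [mv] at h1 ⊢
    generalize ∑ i, (Function.update τ j _ i).2.toNat = x at *
    generalize ∑ i, (τ i).2.toNat = y at *
    rcases Int.units_eq_one_or c.2 with e | e <;> rw [e] at h1 ⊢ <;> cases hb : (τ j).2 <;> rw [hb] at h1 <;>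
      simp [fl] at h1 <;> subst h1 <;> simp only [pow_add, _root_.Units.val_one, _root_.Int.reduceNeg, _root_.one_mul, _root_.Units.val_neg, _root_.pow_one, _root_.mul_neg, _root_.mul_one, _root_.neg_mul, _root_.neg_neg]

/-- **vanishing** -/
theorem bZero : BZero where
  rk κ M s u h e := by rw [← sum_tup h, YT_rk κ s (YK_eq κ s u ▸ e)]
  df M s u h hM e := by rw [YM_sign hM s e, sum_tup h fun a => a.2.toNat, sum_toNat]
  zero κ M u _ h := by
    refine Int.eq_one_or_neg_one_of_mul_eq_one (v := YK κ M 0 u) ?_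
    rcases kn_cases κ with hκ | hκ
    · have h1 := vac_mul_vac (γ := fun i => ps κ (tup M u i)) ((sum_ps_tup hκ h).trans (zero_add _))
      rw [pair_tup hκ h h, if_pos rfl] at h1
      rcases hκ with rfl | rfl <;> exact h1
    · obtain ⟨h1, h2, -⟩ := mem_Lab.1 h
      have h3 : u ∈ Fam (V0 M) := mem_fam_V0 h1 (by rcases hκ with rfl | rfl <;> exact h2.trans (zero_add _))
      have h4 : 2 ^ M * YK κ M 0 u = cc M * rho M u (V0 M) := by
        have := YM_eq 0 (tup M u)
        rw [show XM (M := M) 0 = _ from funext XM_zero, ← tup_V0] at this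
        rcases hκ with rfl | rfl <;> exact this
      have h5 := congrArg₂ (· * ·) h4 h4
      rw [mul_mul_mul_comm, mul_mul_mul_comm (cc M), cc_sq, rho_sq (card_V0 M) h3, (V0_spec M).1, card_range, ← pow_add,
        ← pow_add, show (M + 1) / 2 + M / 2 = M by omega, ← two_mul, pow_mul] at h5
      exact mul_left_cancel₀ (pow_ne_zero M four_ne_zero) (h5.trans (mul_one _).symm)

/-! ### orthonormality -/

theorem sum_ch {α : Type} [Fintype α] [DecidableEq α] {β : Fin a → ℕ} {k : ℕ} (h : ∑ i, β i = k + ∑ i : Fin a, (i : ℕ))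
    (β' : Fin a → ℕ) : ∑ σ : Perm α, (FM (ty σ) β : ℂ) * FM (ty σ) β' =
      if Fintype.card α = k then (k.factorial : ℂ) * pair β β' else 0 := by
  split_ifs with e
  · have h1 := classInner_ch (α := α) (e ▸ h) β'
    simp only [classInner_def, conj_ch, card_perm_complex, e] at h1
    rwa [inv_mul_eq_iff_eq_mul₀ (Nat.cast_ne_zero.2 (Nat.factorial_ne_zero _))] at h1
  · exact sum_eq_zero fun σ _ => by
      rw [FM_eq_zero_of_sum (ty σ) (by rw [h, ty_sum]; omega), Int.cast_zero, zero_mul]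

open LV.Cl.Bas in
theorem Ph_ortho {β : Fin a → ℕ} {γ : Fin b → ℕ} {k l : ℕ} (hk : ∑ i, β i = k + ∑ i : Fin a, (i : ℕ))
    (hl : ∑ i, γ i = l + ∑ i : Fin b, (i : ℕ)) (e : k + l = #T) (β' : Fin a → ℕ) (γ' : Fin b → ℕ) :
    ∑ᶠ g : On T, (Ph T β γ g : ℂ) * Ph T β' γ' g = Nat.card (On T) * (pair β β' * pair γ γ') := by
  have h1 : ∀ (β : Fin a → ℕ) (γ : Fin b → ℕ) (π : Perm (Fin n)) (s : Fin n → ℤˣ), (Ph T β γ ⟨π, s⟩ : ℂ) = ∑ A ∈ T.powerset,
      (if Stab A π then (FM (tyO π A) β : ℂ) * FM (tyO π (T \ A)) γ else 0) * χ (T \ A) s := fun β γ π s => by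
    rw [Ph, sum_filter]
    push_cast
    exact sum_congr rfl fun A _ => by split_ifs; exacts [rfl, (zero_mul _).symm]
  have h2 : ∀ π : Perm (Fin n), ∑ s ∈ S T, (Ph T β γ ⟨π, s⟩ : ℂ) * Ph T β' γ' ⟨π, s⟩ = ∑ A ∈ T.powerset, if Stab A π then
      #(S T) * ((FM (tyO π A) β : ℂ) * FM (tyO π A) β' * (FM (tyO π (T \ A)) γ * FM (tyO π (T \ A)) γ')) else 0 := fun π => by
    simp only [h1, sum_mul_sum]
    rw [sum_comm]
    refine sum_congr rfl fun A hA => ?_
    rw [sum_comm, sum_eq_single_of_mem A hA fun B hB hne => ?_]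
    · simp only [mul_mul_mul_comm _ (χ _ _), ← mul_sum]
      rw [χ_ortho (mem_powerset.1 hA) (mem_powerset.1 hA), if_pos rfl]
      split_ifs
      · ring
      · rw [zero_mul, zero_mul]
    · simp only [mul_mul_mul_comm _ (χ _ _), ← mul_sum]
      rw [χ_ortho (mem_powerset.1 hA) (mem_powerset.1 hB), if_neg hne.symm, mul_zero]
  rw [sum_On fun g => (Ph T β γ g : ℂ) * Ph T β' γ' g, sum_congr rfl fun π _ => h2 π, sum_comm,
    sum_congr rfl (g := fun A => if #A = k then (#(S T) : ℂ) * (k.factorial * pair β β' * (l.factorial * pair γ γ')) else 0)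
      fun A hA => ?_]
  · rw [← sum_filter, ← powersetCard_eq_filter, sum_const, card_powersetCard, card_On,
      ← Nat.choose_mul_factorial_mul_factorial (show k ≤ #T by omega), show #T - k = l by omega, nsmul_eq_mul]
    push_cast
    ring
  · replace hA := mem_powerset.1 hA
    rw [← sum_filter, sum_jn hA]
    simp only [tyO_left, tyO_right hA, ← mul_sum, ← sum_mul, sum_ch hk, sum_ch hl, Fintype.card_coe, card_sdiff_of_subset hA]
    split_ifs with e1 e2
    · rfl
    · omega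
    all_goals simp

theorem sum_Gp (hκ : κ = .A ∨ κ = .U) (f : Multiset ℕ → ℂ) : ∑ᶠ g : Gp κ T, f (tyO g.1.π T) = ∑ σ : Perm T, f (ty σ) := by
  have h0 : Gp κ T = On T ⊓ Ps n := by rcases hκ with rfl | rfl <;> rfl
  rw [h0]
  have := Fintype.ofFinite (On T ⊓ Ps n : Subgroup (SG n))
  rw [finsum_eq_sum_of_fintype]
  refine sum_bij' (fun g _ => g.1.π.subtypePerm (stab_on g.2.1))
    (fun σ _ => ⟨⟨Perm.ofSubtype σ, 1⟩, fun j hj => ⟨Perm.ofSubtype_apply_of_not_mem σ hj, rfl⟩, rfl⟩)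
    (fun _ _ => mem_univ _) (fun _ _ => mem_univ _) (fun g _ => Subtype.ext (SG.ext ?_ g.2.2.symm))
    (fun σ _ => Perm.subtypePerm_ofSubtype σ) fun g _ => by rw [tyO, dif_pos (stab_on g.2.1)]
  exact Perm.ofSubtype_subtypePerm _ fun x hx => by_contra fun e => hx (g.2.1 x e).1

theorem Gp_le0 (κ : Kn) (T : Finset (Fin n)) : Gp κ T ≤ On T := by
  cases κ
  exacts [inf_le_left, inf_le_left, le_rfl, le_rfl]

theorem card_Gp_ne (κ : Kn) (T : Finset (Fin n)) : (Nat.card (Gp κ T) : ℂ) ≠ 0 := Nat.cast_ne_zero.2 Nat.card_pos.ne'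

/-- **orthonormality** -/
theorem bXo : BXo := fun κ M n T w w' hw hw' => by
  rw [ip, inv_mul_eq_iff_eq_mul₀ (card_Gp_ne κ T)]
  have h1 := LabX_subset _ _ _ hw
  have h2 := LabX_subset _ _ _ hw'
  rcases kn_cases κ with hκ | hκ
  · have h3 := sum_Gp (T := T) hκ fun _ => 1
    have := Fintype.ofFinite (Gp κ T)
    rw [finsum_eq_sum_of_fintype, sum_const, sum_const, card_univ, card_univ, Fintype.card_perm, ← Nat.card_eq_fintype_card,
      nsmul_one, nsmul_one] at h3
    rw [finsum_congr fun g : Gp κ T => by rw [X_eq_FM hκ (stab_on (Gp_le0 κ T g.2)), X_eq_FM hκ (stab_on (Gp_le0 κ T g.2))],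
      sum_Gp hκ fun s => (FM s fun i => ps κ (tup M w i) : ℂ) * FM s fun i => ps κ (tup M w' i), sum_ch (sum_ps_tup hκ h1),
      pair_tup hκ h1 h2, h3, Fintype.card_coe, if_pos rfl, Int.cast_ite, Int.cast_one, Int.cast_zero]
  · obtain ⟨β, γ, b1, b2, b3⟩ := exists_ap (mem_Lab.1 h1).1 ((mem_LabX0 hκ).1 hw).2
    obtain ⟨β', γ', -, -, c3⟩ := exists_ap (mem_Lab.1 h2).1 ((mem_LabX0 hκ).1 hw').2
    obtain ⟨k, hk⟩ := Nat.exists_eq_add_of_le' (sum_le_of_injective b1.injective)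
    obtain ⟨l, hl⟩ := Nat.exists_eq_add_of_le' (sum_le_of_injective b2.injective)
    have h3 : ∑ i, (tup M w i).1 = #T + bs .B M := by
      rw [sum_tup (mem_Lab.1 h1).1 fun a => a.1]
      rcases hκ with rfl | rfl <;> exact (mem_Lab.1 h1).2.1
    rw [b3, sum_ap Prod.fst, hk, hl, ← sum_fin_add] at h3
    have h4 := Ph_ortho (T := T) hk hl (by omega) β' γ'
    rw [← Int.cast_mul (pair _ _), ← pr_ap, ← b3, ← c3, pr_tup (mem_Lab.1 h1).1 (mem_Lab.1 h2).1, Int.cast_ite, Int.cast_one,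
      Int.cast_zero] at h4
    have h5 : Gp κ T = On T := by rcases hκ with rfl | rfl <;> rfl
    rw [h5, ← h4]
    exact finsum_congr fun g => by rw [X_eq_Ph hκ (stab_on g.2) b3, X_eq_Ph hκ (stab_on g.2) c3]

/-! ### the sum of the reflections -/

theorem cas_congr {V : Type} [AddCommMonoid V] (κ : Kn) {f f' : SG n → V} (h : ∀ x : SG n, Stab T x.π → f x = f' x)
    (hg : Stab T g.π) : cas κ T f g = cas κ T f' g := by
  have h1 : ∀ e, ∀ x ∈ T, ∀ y ∈ T.filter (x < ·), f (sw x y e * g) = f' (sw x y e * g) := fun e x hx y hy =>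
    h _ (Cas.stab_mul (Cas.stab_swap (iff_of_true hx (mem_filter.1 hy).1)) hg)
  have h2 : ∀ x ∈ T, f (tt x * g) = f' (tt x * g) := fun x _ => h _ (Cas.stab_mul (σ := 1) (fun _ => Iff.rfl) hg)
  cases κ <;> simp only [cas]
  · exact sum_congr rfl fun x hx => sum_congr rfl (h1 1 x hx)
  · exact sum_congr rfl fun x hx => sum_congr rfl (h1 1 x hx)
  · exact congrArg₂ _ (sum_congr rfl fun x hx => sum_congr rfl fun y hy => by rw [h1 _ x hx y hy, h1 _ x hx y hy])
      (sum_congr rfl h2)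
  · exact sum_congr rfl fun x hx => sum_congr rfl fun y hy => by rw [h1 _ x hx y hy, h1 _ x hx y hy]

theorem cas_map {V V' : Type} [AddCommMonoid V] [AddCommMonoid V'] (κ : Kn) (φ : V →+ V') (f : SG n → V) (g : SG n) :
    cas κ T (fun x => φ (f x)) g = φ (cas κ T f g) := by
  cases κ <;> simp only [cas, map_add, map_sum]

theorem cas_mul {V : Type} [Semiring V] (κ : Kn) (c : V) (f : SG n → V) (g : SG n) :
    cas κ T (fun x => c * f x) g = c * cas κ T f g := cas_map κ (AddMonoidHom.mulLeft c) f g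

theorem cas_sum {V ι : Type} [AddCommMonoid V] (κ : Kn) (s : Finset ι) (f : ι → SG n → V) (g : SG n) :
    cas κ T (fun x => ∑ i ∈ s, f i x) g = ∑ i ∈ s, cas κ T (f i) g := by
  classical
  induction s using Finset.induction_on with
  | empty => cases κ <;> simp only [cas, _root_.Finset.sum_empty, _root_.Finset.sum_const_zero, _root_.add_zero]
  | insert i s hi ih =>
    simp only [sum_insert hi, ← ih]
    cases κ <;> simp only [cas, sum_add_distrib] <;> abel

theorem X_expand (hκ : κ = .B ∨ κ = .D) (hg : Stab T g.π) (w : Finset Pt) :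
    cc M * X κ M T w g = ∑ u ∈ Lab κ M #T, rho M w u * Y κ M T u g := by
  rw [X, XK_expand hκ, sty_size hg]
  rfl

theorem Y_expand (hκ : κ = .B ∨ κ = .D) (hg : Stab T g.π) (u : Finset Pt) :
    2 ^ M * Y κ M T u g = cc M * ∑ w ∈ LabX κ M #T, rho M u w * X κ M T w g := by
  rw [Y, YK_expand hκ, sty_size hg]
  rfl

/-- **the sum of the reflections** -/
theorem bXcas : BXcas := fun κ M n T w g ho hw hg => by
  have h1 := LabX_subset _ _ _ hw
  rcases kn_cases κ with hκ | hκ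
  · rw [X_eq_Y hκ]
    exact bCas κ M T w g ho h1 hg
  refine mul_left_cancel₀ (cc_ne M) ?_
  rw [mul_left_comm, ← cas_mul, cas_congr κ (fun x hx => X_expand hκ hx w) hg, cas_sum, mul_left_comm, X_expand hκ hg, mul_sum,
    mul_sum]
  refine sum_congr rfl fun u hu => ?_
  rw [cas_mul, mul_left_comm, bCas κ M T u g ho hu hg, mul_left_comm]
  by_cases e : rho M w u = 0
  · simp only [e, zero_mul, mul_zero]
  · rw [lev_fam hκ (rho_fam (mem_Lab.1 h1).1 (mem_Lab.1 hu).1 e)]

/-! ### completeness -/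

theorem sum_XX (hκ : κ = .B ∨ κ = .D) {g' : SG n} (hg : Stab T g.π) (hg' : Stab T g'.π) :
    4 ^ ((M + 1) / 2) * ∑ w ∈ LabX κ M #T, X κ M T w g * X κ M T w g' =
      2 ^ M * ∑ u ∈ Lab κ M #T, Y κ M T u g * Y κ M T u g' := by
  rw [← cc_sq, mul_sum, mul_sum, sum_congr (s₁ := Lab κ M #T) rfl fun u _ => by
    rw [← mul_assoc, Y_expand hκ hg, mul_assoc, sum_mul], ← mul_sum (Lab κ M #T), sum_comm, mul_sum]
  refine sum_congr rfl fun w _ => ?_
  rw [mul_assoc, mul_left_comm (cc M) (X _ _ _ _ _), X_expand hκ hg', mul_sum]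
  exact congrArg _ (sum_congr rfl fun u _ => by rw [rho_comm]; ring)

/-- column orthogonality -/
theorem X_col (hP : BPars) (ho : Ok κ M #T) {g' : SG n} (hg : Stab T g.π) (hg' : Stab T g'.π) :
    ∑ w ∈ LabX κ M #T, X κ M T w g * X κ M T w g' = Nat.card {h : Gp κ T // Ag κ T (h * g * h⁻¹) g'} := by
  have h1 := hP κ M T g g' ho hg hg'
  rcases kn_cases κ with hκ | hκ
  · rcases hκ with rfl | rfl <;> exact h1.trans (one_mul _)
  refine mul_left_cancel₀ (pow_ne_zero ((M + 1) / 2) four_ne_zero) ?_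
  rw [sum_XX hκ hg hg', h1, ← mul_assoc, show (4 : ℤ) = 2 ^ 2 from rfl, ← pow_mul]
  rcases hκ with rfl | rfl
  · rw [show 2 * ((M + 1) / 2) = M + 1 by have := ho.1; omega, pow_succ]
    rfl
  · rw [show 2 * ((M + 1) / 2) = M by have := ho.1; omega, wp, mul_one]
    exact nofun

theorem Ag_iff {g' : SG n} (hg : g ∈ Gp κ T) (hg' : g' ∈ Gp κ T) : Ag κ T g g' ↔ g = g' := by
  have h1 : (∀ j ∈ T, g.π j = g'.π j) → g.π = g'.π := fun h => Equiv.ext fun j => by
    by_cases e : j ∈ T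
    exacts [h j e, (Gp_le0 κ T hg j e).1.trans (Gp_le0 κ T hg' j e).1.symm]
  have h2 : (∀ j ∈ T, g.π j = g'.π j ∧ g.s j = g'.s j) → g = g' := fun h => SG.ext (h1 fun j e => (h j e).1) (funext fun j => by
    by_cases e : j ∈ T
    exacts [(h j e).2, (Gp_le0 κ T hg j e).2.trans (Gp_le0 κ T hg' j e).2.symm])
  cases κ
  · exact ⟨fun h => SG.ext (h1 h) (hg.2.trans hg'.2.symm), fun e _ _ => e ▸ rfl⟩
  · exact ⟨fun h => SG.ext (h1 h) (hg.2.trans hg'.2.symm), fun e _ _ => e ▸ rfl⟩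
  · exact ⟨h2, fun e _ _ => e ▸ ⟨rfl, rfl⟩⟩
  · exact ⟨h2, fun e _ _ => e ▸ ⟨rfl, rfl⟩⟩

/-- the mean of a class function against the number of conjugating elements -/
theorem sum_conj {f : SG n → ℂ} (hf : Cf κ T f) (hg : g ∈ Gp κ T) :
    ∑ᶠ x : Gp κ T, f x * (Nat.card {h : Gp κ T // Ag κ T (h * x * h⁻¹) g} : ℂ) = Nat.card (Gp κ T) * f g := by
  classical
  have := Fintype.ofFinite (Gp κ T)
  have h1 : ∀ x : Gp κ T, (Nat.card {h : Gp κ T // Ag κ T (h * x * h⁻¹) g} : ℂ) =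
      ∑ h : Gp κ T, if x = h⁻¹ * ⟨g, hg⟩ * h then 1 else 0 := fun x => by
    rw [Nat.card_eq_fintype_card, Fintype.card_subtype, card_filter, Nat.cast_sum]
    refine sum_congr rfl fun h _ => ?_
    rw [Nat.cast_ite, Nat.cast_one, Nat.cast_zero]
    refine if_congr ((Ag_iff (mul_mem (mul_mem h.2 x.2) (inv_mem h.2)) hg).trans ?_) rfl rfl
    rw [Subtype.ext_iff, mul_inv_eq_iff_eq_mul, ← eq_inv_mul_iff_mul_eq, ← mul_assoc]
    rfl
  simp only [finsum_eq_sum_of_fintype, h1, mul_sum, mul_ite, mul_one, mul_zero]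
  rw [sum_comm, Nat.card_eq_fintype_card, ← nsmul_eq_mul, ← card_univ, ← sum_const]
  refine sum_congr rfl fun h _ => ?_
  rw [sum_ite_eq', if_pos (mem_univ _), ← hf g hg h⁻¹ (inv_mem h.2), inv_inv]
  rfl

/-- **completeness** -/
theorem bXc_of (hP : BPars) : BXc := fun κ M n T f ho hf g hg => by
  have := Fintype.ofFinite (Gp κ T)
  refine mul_left_cancel₀ (card_Gp_ne κ T) ?_
  rw [← sum_conj hf hg]
  rw [finsum_congr fun x : Gp κ T => by
    rw [← Int.cast_natCast, ← X_col hP ho (stab_on (Gp_le0 κ T x.2)) (stab_on (Gp_le0 κ T hg))]]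
  simp only [ip, mul_sum, finsum_eq_sum_of_fintype, mul_assoc, mul_inv_cancel_left₀ (card_Gp_ne κ T), sum_mul, Int.cast_sum,
    Int.cast_mul]
  exact sum_comm

end Cfsg.Agent.MO.J
end

-- part: MO/J/Gram
section
/-!
# MO-J: the inner products of Lusztig's functions from the orthonormal system (helper17)

* `ip_eq`, `ip_comm`, `ip_sum`, `ip_Y`, `stab_Gp`, `sum_rho`;
* `BGram2` : the box `BGram` with the division in `ℂ` (in `BGram.bd` it is the division of integers); `bGram2 : BGram2`.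
-/

set_option autoImplicit false

namespace Cfsg.Agent.MO.J

open Equiv Finset Cfsg.Agent.H614
open Cfsg.Agent.LV.Cl (SG On Stab)

variable {n M : ℕ} {κ : Kn} {T : Finset (Fin n)} {g : SG n} {u v : Finset Pt}

theorem Gp_le (κ : Kn) (T : Finset (Fin n)) : Gp κ T ≤ On T := Gp_le0 κ T

theorem mem_LabX (hκ : κ = .B ∨ κ = .D) {k : ℕ} : u ∈ LabX κ M k ↔ u ∈ Lab κ M k ∧ #(row u true) = M / 2 := mem_LabX0 hκ

theorem stab_Gp (h : g ∈ Gp κ T) : Stab T g.π := LV.Cl.Cj.stab_on (Gp_le κ T h)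

theorem ip_eq [Fintype (Gp κ T)] (f f' : SG n → ℂ) :
    ip κ T f f' = (Nat.card (Gp κ T) : ℂ)⁻¹ * ∑ g : Gp κ T, f g * f' g := congrArg _ (finsum_eq_sum_of_fintype _)

theorem ip_comm (f f' : SG n → ℂ) : ip κ T f f' = ip κ T f' f := congrArg _ (finsum_congr fun _ => mul_comm _ _)

/-- linearity in the second argument -/
theorem ip_sum {ι : Type} {s : Finset ι} {f f' : SG n → ℂ} {F : ι → SG n → ℂ} {c : ℂ} {a : ι → ℂ}
    (h : ∀ g ∈ Gp κ T, c * f' g = ∑ i ∈ s, a i * F i g) : c * ip κ T f f' = ∑ i ∈ s, a i * ip κ T f (F i) := by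
  have := Fintype.ofFinite (Gp κ T)
  simp only [ip_eq]
  rw [mul_left_comm, mul_sum, sum_congr rfl fun g _ => by rw [mul_left_comm, h g g.2, mul_sum], sum_comm, mul_sum]
  refine sum_congr rfl fun i _ => ?_
  simp only [mul_sum, mul_left_comm (a i)]

theorem ip_Y (hκ : κ = .B ∨ κ = .D) (f : SG n → ℂ) (u : Finset Pt) : 2 ^ M * ip κ T f (fun g => Y κ M T u g) =
    ∑ w ∈ LabX κ M #T, (cc M * rho M u w : ℤ) * ip κ T f fun g => X κ M T w g := ip_sum fun g hg => by
  have h := Y_expand (M := M) hκ (stab_Gp hg) u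
  rw [mul_sum] at h
  simp only [← mul_assoc] at h
  exact_mod_cast h

theorem sum_rho (hκ : κ = .B ∨ κ = .D) {k : ℕ} (hu : u ∈ Lab κ M k) (hv : v ∈ Lab κ M k) :
    ∑ w ∈ LabX κ M k, rho M u w * rho M v w = if dbl u = dbl v ∧ sing u = sing v then
      4 ^ #(dbl u) * (eu u * eu v * kr (sing u) (symmDiff (low u) (low v))) else 0 := by
  have h1 := (mem_Lab.1 hu).1
  have h2 := (mem_Lab.1 hv).1
  have h3 : ∀ w ∈ LabX κ M k, #w = M := fun w hw => (mem_Lab.1 (LabX_subset _ _ _ hw)).1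
  split_ifs with e
  swap
  · refine sum_eq_zero fun w hw => by_contra fun h => e ?_
    obtain ⟨a1, a2⟩ := mem_Fam.1 (rho_fam h1 (h3 w hw) (left_ne_zero_of_mul h))
    obtain ⟨a3, a4⟩ := mem_Fam.1 (rho_fam h2 (h3 w hw) (right_ne_zero_of_mul h))
    exact ⟨a1.trans a3.symm, a2.trans a4.symm⟩
  have h4 : v ∈ Fam u := mem_Fam.2 ⟨e.1.symm, e.2.symm⟩
  have h5 : symmDiff (low u) (low v) ⊆ sing u :=
    symmDiff_subset_union.trans (union_subset (low_subset u) (e.2 ▸ low_subset v))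
  rw [← sum_subset (s₁ := {w ∈ Fam u | #(row w true) = M / 2})
    (fun w hw => (mem_LabX hκ).2 ⟨Fam_subset hκ hu (mem_filter.1 hw).1, (mem_filter.1 hw).2⟩) fun w hw hw' =>
      mul_eq_zero_of_left (by_contra fun h => hw' (mem_filter.2 ⟨mem_Fam.2 ((mem_Fam.1 (rho_fam h1 (h3 w hw) h)).imp
        Eq.symm Eq.symm), ((mem_LabX hκ).1 hw).2⟩)) _, sum_filter, sum_Fam]
  delta kr
  rw [powersetCard_eq_filter, sum_filter, mul_sum, mul_sum]
  refine sum_congr rfl fun I hI => ?_
  obtain ⟨a1, a2, a3⟩ := fm_spec (disj_dbl u) (mem_powerset.1 hI)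
  generalize fm (dbl u) (sing u) I = w at a1 a2 a3
  have a4 := card_eq u
  have a5 : #w = M := (card_fam (mem_Fam.2 ⟨a1, a2⟩)).trans h1
  have a6 : row w true ∩ symmDiff (low u) (low v) = I ∩ symmDiff (low u) (low v) := by
    ext x
    rw [mem_inter, mem_inter, ← a3, mem_row, mem_low]
    refine and_congr_left fun hx => (and_iff_left_of_imp fun b1 b2 => ?_).symm
    exact mem_sing.1 (a2 ▸ h5 hx) (iff_of_true b2 b1)
  rw [mul_ite, mul_ite, mul_zero, mul_zero, card_row_true, a1, a3]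
  refine if_ctx_congr (by (clear * - h1 a4; solve | lia | omega)) (fun _ => ?_) fun _ => rfl
  rw [rho_flip h1 a5 h4, mul_left_comm, rho_sq a5 (mem_Fam.2 ⟨a1.symm, a2.symm⟩), a1, a6, mul_comm]

/-- the inner products -/
structure BGram2 : Prop where
  au : ∀ κ M {n : ℕ} (T : Finset (Fin n)) (u v : Finset Pt), κ = .A ∨ κ = .U → Ok κ M #T → u ∈ Lab κ M #T → v ∈ Lab κ M #T →
    ip κ T (fun g => Y κ M T u g) (fun g => Y κ M T v g) = if u = v then 1 else 0
  bd : ∀ κ M {n : ℕ} (T : Finset (Fin n)) (u v : Finset Pt), κ = .B ∨ κ = .D → Ok κ M #T → u ∈ Lab κ M #T → v ∈ Lab κ M #T →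
    ip κ T (fun g => Y κ M T u g) (fun g => Y κ M T v g) = if dbl u = dbl v ∧ sing u = sing v then
      ((eu u * eu v * kr (sing u) (symmDiff (low u) (low v)) : ℤ) : ℂ) / 4 ^ (#(sing u) / 2) else 0

/-- **the inner products** -/
theorem bGram2 : BGram2 where
  au κ M _ T u v hκ _ hu hv := by rcases hκ with rfl | rfl <;> exact bXo _ M T u v hu hv
  bd κ M _ T u v hκ _ hu hv := by
    have h1 : (2 : ℂ) ^ M * (2 ^ M * ip κ T (fun g => Y κ M T u g) fun g => Y κ M T v g) =
        (cc M * cc M * ∑ w ∈ LabX κ M #T, rho M u w * rho M v w : ℤ) := by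
      rw [ip_Y hκ, mul_sum, mul_sum, Int.cast_sum]
      refine sum_congr rfl fun w hw => ?_
      rw [mul_left_comm, ip_comm, ip_Y hκ, sum_congr rfl fun w' hw' => by rw [bXo κ M T w w' hw hw']]
      simp only [mul_ite, mul_one, mul_zero, sum_ite_eq, if_pos hw]
      push_cast
      ring
    rw [cc_sq, sum_rho hκ hu hv, ← mul_assoc, ← mul_pow] at h1
    have h2 : ((2 : ℂ) * 2) ^ M ≠ 0 := pow_ne_zero _ (by norm_num)
    refine mul_left_cancel₀ h2 (h1.trans ?_)
    split_ifs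
    · have h3 := card_eq u
      rw [(mem_Lab.1 hu).1] at h3
      rw [show (2 : ℂ) * 2 = 4 by norm_num, show (4 : ℂ) ^ M = 4 ^ ((M + 1) / 2) * 4 ^ #(dbl u) * 4 ^ (#(sing u) / 2) by
        rw [← pow_add, ← pow_add]; congr 1; (clear * - h3; solve | lia | omega)]
      push_cast
      field_simp
    · simp

end Cfsg.Agent.MO.J
end

-- part: MO/J/Pars
section
/-!
# MO-J: Parseval's identity (helper19)

* `Iw`, `IS` : the signed injections `T → T'` which intertwine `g` and `g'`; `card_IS` : the recursion along one cycle;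
* `bPars : BPars`.
-/

set_option autoImplicit false
set_option linter.unusedSectionVars false

namespace Cfsg.Agent.MO.J.Pars

open Equiv Finset Function
open Cfsg.Agent.LV.Cl (SG On Stab cyc mul_s)
open Cfsg.Agent.LV.Cl.Cj

variable {n : ℕ} {P : Prop} {T T' : Finset (Fin n)} {g g' : SG n} {x y : Fin n} {φ φ' : Fin n → Fin n × ℤˣ}

/-- `φ` is a signed injection of `T` in `T'` which intertwines `g` and `g'`; without signs if `P` holds -/
def Iw (P : Prop) (T : Finset (Fin n)) (g : SG n) (T' : Finset (Fin n)) (g' : SG n) (φ : Fin n → Fin n × ℤˣ) : Prop :=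
  Set.InjOn (fun j => (φ j).1) T ∧ ∀ j ∈ T, (φ j).1 ∈ T' ∧ (P → (φ j).2 = 1) ∧ (φ (g.π j)).1 = g'.π (φ j).1 ∧
    (φ (g.π j)).2 * g.s j * (φ j).2 = g'.s (φ j).1

open Classical in
/-- the set of these maps -/
noncomputable def IS (P : Prop) (T : Finset (Fin n)) (g : SG n) (T' : Finset (Fin n)) (g' : SG n) : Finset (Fin n → Fin n × ℤˣ) :=
  {φ | (∀ j, j ∉ T → φ j = (j, 1)) ∧ Iw P T g T' g' φ}

theorem mem_IS : φ ∈ IS P T g T' g' ↔ (∀ j, j ∉ T → φ j = (j, 1)) ∧ Iw P T g T' g' φ := by simp only [IS, _root_.Finset.mem_filter, _root_.Finset.mem_univ, _root_.true_and]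

/-- the type of the cycle through `x` -/
noncomputable def cty (g : SG n) (x : Fin n) : Cy := (#(cyc g.π x), ∏ j ∈ cyc g.π x, g.s j)

theorem Iw.pow (h : Iw P T g T' g' φ) (hT : Stab T g.π) (hx : x ∈ T) (i : ℕ) : (φ ((g.π ^ i) x)).1 = (g'.π ^ i) (φ x).1 := by
  induction i with
  | zero => rfl
  | succ i ih => rw [pow_succ', pow_succ', Perm.mul_apply, Perm.mul_apply, (h.2 _ ((stab_pow hT i x).2 hx)).2.2.1, ih]

theorem Iw.image (h : Iw P T g T' g' φ) (hT : Stab T g.π) (hx : x ∈ T) :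
    (cyc g.π x).image (fun j => (φ j).1) = cyc g'.π (φ x).1 := by
  ext z
  simp only [mem_image, mem_cyc']
  constructor
  · rintro ⟨_, ⟨i, rfl⟩, rfl⟩
    exact ⟨i, (h.pow hT hx i).symm⟩
  · rintro ⟨i, rfl⟩
    exact ⟨_, ⟨i, rfl⟩, h.pow hT hx i⟩

theorem Iw.cty (h : Iw P T g T' g' φ) (hT : Stab T g.π) (hx : x ∈ T) : cty g' (φ x).1 = cty g x := by
  have h1 := cyc_subset hT hx
  have h2 : Set.InjOn (fun j => (φ j).1) (cyc g.π x) := h.1.mono h1
  rw [Pars.cty, Pars.cty, ← h.image hT hx, card_image_of_injOn h2, prod_image h2,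
    ← prod_congr rfl fun j hj => (h.2 j (h1 hj)).2.2.2, prod_mul_distrib, prod_mul_distrib,
    prod_stab (stab_cyc _ _) fun j => (φ j).2, mul_right_comm, Int.units_mul_self, one_mul]

theorem Iw.ext (h : Iw P T g T' g' φ) (h' : Iw P T g T' g' φ') (hT : Stab T g.π) (hx : x ∈ T) (e : φ x = φ' x) :
    ∀ j ∈ cyc g.π x, φ j = φ' j := by
  intro j hj
  obtain ⟨i, rfl⟩ := mem_cyc'.1 hj
  clear hj
  induction i with
  | zero => exact e
  | succ i ih =>
    have h1 := (h.2 _ ((stab_pow hT i x).2 hx)).2.2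
    have h2 := (h'.2 _ ((stab_pow hT i x).2 hx)).2.2
    rw [ih] at h1
    rw [pow_succ', Perm.mul_apply]
    exact Prod.ext (h1.1.trans h2.1.symm) (mul_right_cancel (mul_right_cancel (h1.2.trans h2.2.symm)))

/-- two cycles of the same type -/
theorem exists_Iw (hP : P → g.s = 1 ∧ g'.s = 1) (h : cty g' y = cty g x) {e : ℤˣ} (he : P → e = 1) :
    ∃ φ, φ x = (y, e) ∧ Iw P (cyc g.π x) g (cyc g'.π y) g' φ := by
  obtain ⟨f, σ, a1, a2⟩ := exists_cyc (congrArg Prod.fst h).symm (congrArg Prod.snd h).symm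
  obtain ⟨k, hk⟩ := mem_cyc'.1 (show y ∈ cyc g'.π (f x) by rw [cyc_eq (a2 x (self_mem _ _)).1]; exact self_mem _ _)
  have h1 : ∀ z, (g'.π ^ k) (g'.π z) = g'.π ((g'.π ^ k) z) := fun z => by
    rw [← Perm.mul_apply, ← Perm.mul_apply, ← pow_succ, ← pow_succ']
  have h2 : ∀ z, (g' ^ k).s (g'.π z) * g'.s z = g'.s ((g'.π ^ k) z) * (g' ^ k).s z := fun z => by
    rw [← mul_s, ← pow_π, ← mul_s, ← pow_succ, ← pow_succ']
  by_cases hp : P
  · refine ⟨fun j => ((g'.π ^ k) (f j), 1), Prod.ext hk (he hp).symm, fun a ha b hb e => a1 ha hb ((g'.π ^ k).injective e),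
      fun j hj => ⟨(stab_pow (stab_cyc _ _) k _).2 (a2 j hj).1, fun _ => rfl, ?_, ?_⟩⟩
    · simp only [(a2 j hj).2.1, h1]
    · simp only [(hP hp).1, (hP hp).2, Pi.one_apply, mul_one]
  · refine ⟨fun j => ((g'.π ^ k) (f j), e * ((g' ^ k).s (f x) * σ x) * ((g' ^ k).s (f j) * σ j)),
      Prod.ext hk (by simp only [mul_assoc e, Int.units_mul_self, mul_one]), fun a ha b hb e => a1 ha hb ((g'.π ^ k).injective e),
      fun j hj => ⟨(stab_pow (stab_cyc _ _) k _).2 (a2 j hj).1, fun e => absurd e hp, ?_, ?_⟩⟩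
    · simp only [(a2 j hj).2.1, h1]
    · have h3 := h2 (f j)
      have h4 := (a2 j hj).2.2
      simp only [(a2 j hj).2.1]
      revert h3 h4
      generalize e * ((g' ^ k).s (f x) * σ x) = a
      generalize (g' ^ k).s (g'.π (f j)) = b
      generalize g'.s (f j) = c
      generalize g'.s ((g'.π ^ k) (f j)) = d
      generalize (g' ^ k).s (f j) = p
      generalize σ (g.π j) = q
      generalize g.s j = r
      generalize σ j = t
      revert a b c d p q r t
      decide +kernel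

theorem card_fiber (hP : P → g.s = 1 ∧ g'.s = 1) (hT : Stab T g.π) (hT' : Stab T' g'.π) (hx : x ∈ T) (hy : y ∈ T')
    (h : cty g' y = cty g x) {e : ℤˣ} (he : P → e = 1) :
    #{φ ∈ IS P T g T' g' | φ x = (y, e)} = #(IS P (T \ cyc g.π x) g (T' \ cyc g'.π y) g') := by
  obtain ⟨ρ, r1, r2⟩ := exists_Iw hP h he
  have h1 := cyc_subset hT hx
  have h2 := cyc_subset hT' hy
  refine card_bij (fun φ _ j => if j ∈ cyc g.π x then (j, 1) else φ j) (fun φ hφ => ?_) (fun φ hφ φ' hφ' e => ?_) fun ψ hψ => ?_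
  · obtain ⟨a0, a1⟩ := mem_filter.1 hφ
    obtain ⟨a2, a3⟩ := mem_IS.1 a0
    refine mem_IS.2 ⟨fun j hj => ?_, fun a ha b hb e => ?_, fun j hj => ?_⟩
    · split_ifs with c
      · rfl
      · exact a2 j fun e => hj (mem_sdiff.2 ⟨e, c⟩)
    · obtain ⟨ha1, ha2⟩ := mem_sdiff.1 ha
      obtain ⟨hb1, hb2⟩ := mem_sdiff.1 hb
      simp only [if_neg ha2, if_neg hb2] at e
      exact a3.1 ha1 hb1 e
    · obtain ⟨hj1, hj2⟩ := mem_sdiff.1 hj
      simp only [stab_cyc g.π x j, if_neg hj2]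
      refine ⟨mem_sdiff.2 ⟨(a3.2 j hj1).1, fun c => hj2 ?_⟩, (a3.2 j hj1).2⟩
      rw [show y = (φ x).1 by rw [a1], ← a3.image hT hx] at c
      obtain ⟨i, hi, c⟩ := mem_image.1 c
      exact a3.1 (h1 hi) hj1 c ▸ hi
  · obtain ⟨a0, a1⟩ := mem_filter.1 hφ
    obtain ⟨b0, b1⟩ := mem_filter.1 hφ'
    funext j
    by_cases c : j ∈ cyc g.π x
    · exact (mem_IS.1 a0).2.ext (mem_IS.1 b0).2 hT hx (a1.trans b1.symm) j c
    · simpa only [if_neg c] using congrFun e j
  · obtain ⟨b1, b2⟩ := mem_IS.1 hψ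
    refine ⟨fun j => if j ∈ cyc g.π x then ρ j else ψ j, mem_filter.2 ⟨mem_IS.2 ⟨fun j hj => ?_, fun a ha b hb e => ?_,
      fun j hj => ?_⟩, (if_pos (self_mem _ _)).trans r1⟩, funext fun j => ?_⟩
    · rw [if_neg fun c => hj (h1 c)]
      exact b1 j fun c => hj (mem_sdiff.1 c).1
    · beta_reduce at e
      split_ifs at e with c1 c2 c2
      · exact r2.1 c1 c2 e
      · exact absurd (e ▸ (r2.2 a c1).1) (mem_sdiff.1 (b2.2 b (mem_sdiff.2 ⟨hb, c2⟩)).1).2
      · exact absurd (e ▸ (r2.2 b c2).1) (mem_sdiff.1 (b2.2 a (mem_sdiff.2 ⟨ha, c1⟩)).1).2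
      · exact b2.1 (mem_sdiff.2 ⟨ha, c1⟩) (mem_sdiff.2 ⟨hb, c2⟩) e
    · simp only [stab_cyc g.π x j]
      split_ifs with c
      · exact ⟨h2 (r2.2 j c).1, (r2.2 j c).2⟩
      · exact ⟨(mem_sdiff.1 (b2.2 j (mem_sdiff.2 ⟨hj, c⟩)).1).1, (b2.2 j (mem_sdiff.2 ⟨hj, c⟩)).2⟩
    · split_ifs with c
      · exact (b1 j fun c' => (mem_sdiff.1 c').2 c).symm
      · exact if_neg c

open Classical in
/-- **the recursion along the cycle through `x`** -/
theorem card_IS (hP : P → g.s = 1 ∧ g'.s = 1) (hT : Stab T g.π) (hT' : Stab T' g'.π) (hx : x ∈ T) :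
    #(IS P T g T' g') = (if P then 1 else 2) * ∑ y ∈ T' with cty g' y = cty g x, #(IS P (T \ cyc g.π x) g (T' \ cyc g'.π y) g') := by
  rw [card_eq_sum_card_fiberwise (f := fun φ => φ x) (t := {y ∈ T' | cty g' y = cty g x} ×ˢ univ.filter fun e : ℤˣ => P → e = 1) fun φ hφ => ?_,
    sum_product, mul_sum]
  · refine sum_congr rfl fun y hy => ?_
    rw [sum_congr rfl fun e he => card_fiber hP hT hT' hx (mem_filter.1 hy).1 (mem_filter.1 hy).2 (mem_filter.1 he).2, sum_const,
      smul_eq_mul]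
    congr 1
    split_ifs with c
    · simp only [c, forall_const, filter_eq', mem_univ, if_true, card_singleton]
    · simp only [c, false_imp_iff, filter_true, card_univ, Fintype.card_units_int]
  · have h := (mem_IS.1 hφ).2
    exact mem_product.2 ⟨mem_filter.2 ⟨(h.2 x hx).1, h.cty hT hx⟩, mem_filter.2 ⟨mem_univ _, (h.2 x hx).2.1⟩⟩

theorem card_cty (hT : Stab T g.π) (c : Cy) : #{y ∈ T | cty g y = c} = c.1 * (sty T g).count c := by
  induction T using Finset.strongInduction with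
  | H T ih =>
    rcases T.eq_empty_or_nonempty with rfl | ⟨x, hx⟩
    · simp [sty_empty]
    · have h1 := cyc_subset hT hx
      have h2 : ∀ y ∈ cyc g.π x, cty g y = cty g x := fun y hy => by rw [cty, cyc_eq hy, cty]
      rw [sty_step hT hx, ← sdiff_union_of_subset h1, filter_union, card_union_of_disjoint (disjoint_filter_filter sdiff_disjoint),
        ih _ (sdiff_ssubset h1 ⟨x, self_mem _ _⟩) (stab_sdiff hT (stab_cyc _ _)), sdiff_union_of_subset h1, Multiset.count_cons,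
        mul_add]
      congr 1
      split_ifs with e
      · rw [filter_true_of_mem fun y hy => (h2 y hy).trans e.symm, e, mul_one]
      · rw [filter_false_of_mem fun y hy e' => e (e'.symm.trans (h2 y hy)), card_empty, mul_zero]

theorem sty_one (h : g.s = 1) : ∀ c ∈ sty T g, c.2 = 1 := fun c hc => by
  obtain ⟨C, -, rfl⟩ := Multiset.mem_map.1 hc
  simp [h]

theorem PL_card {κ : Kn} {M : ℕ} (hP : κ = .A ∨ κ = .U → g.s = 1 ∧ g'.s = 1) (hT : Stab T g.π) (hT' : Stab T' g'.π)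
    (hc : #T' = #T) (hM : Ok κ M #T) : PL κ M #T (sty T g) (sty T' g') = wp κ * #(IS (κ = .A ∨ κ = .U) T g T' g') := by
  induction T using Finset.strongInduction generalizing T' with
  | H T ih =>
    rcases T.eq_empty_or_nonempty with rfl | ⟨x, hx⟩
    · obtain rfl : T' = ∅ := card_eq_zero.1 hc
      have h1 : IS (κ = .A ∨ κ = .U) ∅ g ∅ g' = {fun j => (j, 1)} := by
        ext φ
        simp [mem_IS, Iw, funext_iff]
      rw [sty_empty, sty_empty, h1, card_singleton, Nat.cast_one, mul_one]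
      exact PL_zero hM
    · have h1 := cyc_subset hT hx
      have h2 := card_sdiff_add_card_eq_card h1
      have h3 : ∀ y ∈ ({y ∈ T' | cty g' y = cty g x} : Finset (Fin n)),
          wp κ * (#(IS (κ = .A ∨ κ = .U) (T \ cyc g.π x) g (T' \ cyc g'.π y) g') : ℤ) =
            PL κ M #(T \ cyc g.π x) (sty (T \ cyc g.π x) g) ((sty T' g').erase (cty g x)) := fun y hy => by
        obtain ⟨h4, h5⟩ := mem_filter.1 hy
        have h6 := card_sdiff_add_card_eq_card (cyc_subset hT' h4)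
        have h7 : #(cyc g'.π y) = #(cyc g.π x) := congrArg Prod.fst h5
        rw [sty_step hT' h4, ← h5, cty, Multiset.erase_cons_head]
        exact (ih _ (sdiff_ssubset h1 ⟨x, self_mem _ _⟩) (stab_sdiff hT (stab_cyc _ _)) (stab_sdiff hT' (stab_cyc _ _))
          (by omega) (ok_le hM (by omega))).symm
      rw [card_IS hP hT hT' hx, Nat.cast_mul, Nat.cast_sum, mul_left_comm, mul_sum, sum_congr rfl h3, sum_const, card_cty hT',
        sty_step hT hx, ← h2]
      refine (PL_cons (c := cty g x) _ _ (sty_pos _ _) (by rwa [sty_size hT', hc]) (card_pos.2 ⟨x, self_mem _ _⟩)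
        fun e => ⟨by simp [cty, (hP e).1], sty_one (hP e).2⟩).trans ?_
      rw [ws, nsmul_eq_mul, Nat.cast_mul, mul_assoc, mul_assoc, mul_assoc]
      congr

theorem card_Ag {G : Subgroup (SG n)} (hG : ∀ h, h ∈ G ↔ h ∈ On T ∧ (P → h.s = 1)) (hT : Stab T g.π) :
    Nat.card {h : G // ∀ j ∈ T, (h * g * (h : SG n)⁻¹).π j = g'.π j ∧ (h * g * (h : SG n)⁻¹).s j = g'.s j} = #(IS P T g T g') := by
  have key : ∀ h ∈ On T, (∀ j ∈ T, (h * g * h⁻¹).π j = g'.π j ∧ (h * g * h⁻¹).s j = g'.s j) ↔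
      ∀ j ∈ T, h.π (g.π j) = g'.π (h.π j) ∧ h.s (g.π j) * g.s j * h.s j = g'.s (h.π j) := fun h hh => by
    refine ⟨fun e j hj => ?_, fun e j hj => ?_⟩
    · rw [← conj_π, ← conj_s]
      exact e _ ((stab_on hh j).2 hj)
    · obtain ⟨y, rfl⟩ := h.π.surjective j
      rw [conj_π, conj_s]
      exact e y ((stab_on hh y).1 hj)
  rw [← Nat.card_eq_finsetCard]
  refine Nat.card_eq_of_bijective (fun h => ⟨fun j => (h.1.1.π j, h.1.1.s j), ?_⟩) ⟨fun a b e => ?_, fun φ => ?_⟩
  · have h1 := (hG _).1 h.1.2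
    have h2 := (key _ h1.1).1 h.2
    exact mem_IS.2 ⟨fun j hj => Prod.ext (h1.1 j hj).1 (h1.1 j hj).2, h.1.1.π.injective.injOn,
      fun j hj => ⟨(stab_on h1.1 j).2 hj, fun p => congrFun (h1.2 p) j, h2 j hj⟩⟩
  · have h1 := congrFun (congrArg Subtype.val e)
    exact Subtype.ext (Subtype.ext (SG.ext (Equiv.ext fun j => congrArg Prod.fst (h1 j)) (funext fun j => congrArg Prod.snd (h1 j))))
  · obtain ⟨h1, h2⟩ := mem_IS.1 φ.2
    obtain ⟨h, hh, h3⟩ := exists_on h2.1 (fun j hj => (h2.2 j hj).1) fun j => (φ.1 j).2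
    refine ⟨⟨⟨h, (hG _).2 ⟨hh, fun p => funext fun j => ?_⟩⟩, (key h hh).2 fun j hj => ?_⟩, Subtype.ext (funext fun j => ?_)⟩
    · by_cases c : j ∈ T
      · exact (h3 j c).2.trans ((h2.2 j c).2.1 p)
      · exact (hh j c).2
    · rw [(h3 _ hj).1, (h3 _ hj).2, (h3 _ ((hT j).2 hj)).1, (h3 _ ((hT j).2 hj)).2]
      exact (h2.2 j hj).2.2
    · by_cases c : j ∈ T
      · exact Prod.ext (h3 j c).1 (h3 j c).2
      · exact (Prod.ext (hh j c).1 (hh j c).2).trans (h1 j c).symm

theorem pars_AU {κ : Kn} {M : ℕ} (hκ : κ = .A ∨ κ = .U) (hM : Ok κ M #T) (hT : Stab T g.π) (hT' : Stab T g'.π) :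
    ∑ u ∈ Lab κ M #T, Y κ M T u g * Y κ M T u g' =
      wp κ * Nat.card {h : (On T ⊓ Ps n : Subgroup (SG n)) // ∀ j ∈ T, (h * g * (h : SG n)⁻¹).π j = g'.π j} := by
  have h1 : ∀ (u : Finset Pt) (g : SG n), Stab T g.π → Y κ M T u g = YK κ M (sty T ⟨g.π, 1⟩) u := fun u g h =>
    Y_congr κ M u h (by rcases hκ with rfl | rfl <;> exact fun _ _ => rfl)
  have h2 := PL_card (g := ⟨g.π, 1⟩) (g' := ⟨g'.π, 1⟩) (fun _ => ⟨rfl, rfl⟩) hT hT' rfl hM
  rw [← card_Ag (g := ⟨g.π, 1⟩) (G := On T ⊓ Ps n) (fun h => and_congr_right fun _ => ⟨fun e _ => e, fun e => e hκ⟩) hT] at h2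
  rw [sum_congr rfl fun u _ => by rw [h1 u g hT, h1 u g' hT']]
  refine h2.trans ?_
  (with_reducible congr 2)
  refine Nat.card_congr (Equiv.subtypeEquivRight fun h => forall₂_congr fun j _ => and_iff_left ?_)
  have h3 : h.1.s = 1 := h.2.2
  simp [h3]

example := And.intro @Iw.eq_def (And.intro @Iw.eq_1 (And.intro @IS.eq_def (And.intro @IS.eq_1 (And.intro @cty.eq_def @cty.eq_1))))

end Cfsg.Agent.MO.J.Pars

namespace Cfsg.Agent.MO.J

open Pars

/-- **Parseval.** -/
theorem bPars : BPars := fun κ M n T g g' hM hT hT' => by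
  cases κ
  · exact pars_AU (Or.inl rfl) hM hT hT'
  · exact pars_AU (Or.inr rfl) hM hT hT'
  all_goals
    refine (PL_card (fun e => by simp at e) hT hT' rfl hM).trans ?_
    rw [← card_Ag (G := LV.Cl.On T) (fun h => by simp) hT]
    rfl

end Cfsg.Agent.MO.J
end

private theorem dce_8809bde21e9d : _root_.True := by
  try have : _root_.True := by simp only [_root_.Cfsg.Agent.MO.J.rho.eq_1]
  try have : _root_.True := by simp only [_root_.Cfsg.Agent.MO.J.ip.eq_1]
  try have : _root_.True := by simp only [_root_.Cfsg.Agent.MO.J.ap.eq_1]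
  try have : _root_.True := by simp only [_root_.Cfsg.Agent.MO.J.Pars.IS.eq_1]
  try have : _root_.True := by simp only [_root_.Cfsg.Agent.MO.J.X.eq_1]
  try have : _root_.True := by simp only [_root_.Cfsg.Agent.MO.J.dbl.eq_1]
  try have : _root_.True := by simp only [_root_.Cfsg.Agent.MO.J.R.eq_1]
  try have : _root_.True := by simp only [_root_.Cfsg.Agent.MO.J.rh.eq_1]
  try have : _root_.True := by simp only [_root_.Cfsg.Agent.MO.J.Pars.Iw.eq_1]
  try have : _root_.True := by simp only [_root_.Cfsg.Agent.MO.J.sing.eq_1]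
  try have : _root_.True := by simp only [_root_.Cfsg.Agent.MO.J.cp.eq_1]
  try have : _root_.True := by simp only [_root_.Cfsg.Agent.MO.J.V0.eq_1]
  try have : _root_.True := by simp only [_root_.Cfsg.Agent.MO.J.sw'.eq_1]
  try have : _root_.True := by simp only [_root_.Cfsg.Agent.MO.J.Pars.cty.eq_1]
  try have : _root_.True := by simp only [_root_.Cfsg.Agent.MO.J.Ph.eq_1]
  try have : _root_.True := by simp only [_root_.Cfsg.Agent.MO.J.row.eq_1]
  try have : _root_.True := by simp only [_root_.Cfsg.Agent.MO.J.eu.eq_1]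
  try have : _root_.True := by simp only [_root_.Cfsg.Agent.MO.J.fp.eq_1]
  try have : _root_.True := by simp only [_root_.Cfsg.Agent.MO.J.wg.eq_1]
  try have : _root_.True := by simp only [_root_.Cfsg.Agent.MO.J.Fam.eq_1]
  try have : _root_.True := by simp only [_root_.Cfsg.Agent.MO.J.cc.eq_1]
  try have : _root_.True := by simp only [_root_.Cfsg.Agent.MO.J.gg.eq_1]
  try have : _root_.True := by simp only [_root_.Cfsg.Agent.MO.J.wr.eq_1]
  try have : _root_.True := by simp only [_root_.Cfsg.Agent.MO.J.low.eq_1]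
  try have : _root_.True := by simp only [_root_.Cfsg.Agent.MO.J.fm.eq_1]
  exact _root_.True.intro
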